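import Cfsg.Agent.Lib.Helper19.Chf.Defs

set_option autoImplicit false
set_option linter.unusedVariables false
set_option linter.unusedSectionVars false

namespace Cfsg.Agent.Lib.Helper19.Chf

open Cfsg Cfsg.Agent.Lib.Helper19.Sch

/-! PIECE C1 (farm Chf, helper19, row S1895).  PROOF SKETCH:
L ≤ K by c.min, so K.relIndex H ∣ L.relIndex H (Subgroup.relIndex_dvd_of_le_left) and L.relIndex H ≠ 0 (finite): Nat.le_of_dvd.
-/

theorem C1 {G : Type*} [Group G] [Finite G] {p : ℕ} [Fact p.Prime] {H K : Subgroup G} (c : Cfg p H K) (L : Subgroup G) (hL : L.Normal) (hLH : L ≤ H) (hne : L ≠ H) :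
    K.relIndex H ≤ L.relIndex H := by
  have h1 : L ≤ K := c.min L hL hLH hne
  have h2 : K.relIndex H ∣ L.relIndex H := Subgroup.relIndex_dvd_of_le_left H h1
  have h3 : L.relIndex H ≠ 0 := by
    unfold Subgroup.relIndex
    exact Subgroup.index_ne_zero_of_finite
  exact Nat.le_of_dvd (Nat.pos_of_ne_zero h3) h2

end Cfsg.Agent.Lib.Helper19.Chf
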