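import Cfsg.Agent.Lib.Helper19.Chf.Defs
import Cfsg.Agent.Lib.Helper19.Sch.B0
import Cfsg.Agent.Lib.Helper19.Sch.XC3

set_option autoImplicit false
set_option linter.unusedVariables false
set_option linter.unusedSectionVars false

namespace Cfsg.Agent.Lib.Helper19.Chf

open Cfsg Cfsg.Agent.Lib.Helper19.Sch

/-! PIECE C2 (farm Chf, helper19, row S1895).  PROOF SKETCH:
L := DD p H (Sch.Defs: closure of the p-th powers and commutators of H) is normal in G (Sch.B0, haveI := c.hHn), L ≤ H.  L ≠ H: H ≠ ⊥ (K < H) is a nontrivial finite p-group, so it has a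
proper subgroup M (normal of index p) containing all p-th powers and commutators (see the proof of Sch.XC3 on main, which does exactly this for a type P; apply it to ↥H or copy it).  c.min: L ≤ K; Subgroup.subset_closure.
-/

theorem C2 {G : Type*} [Group G] [Finite G] {p : ℕ} [Fact p.Prime] {H K : Subgroup G} (c : Cfg p H K) :
    (∀ x ∈ H, x ^ p ∈ K) ∧ ∀ x ∈ H, ∀ y ∈ H, x * y * x⁻¹ * y⁻¹ ∈ K := by
  classical
  haveI := c.hHn
  have hLn : (DD p H).Normal := B0 p H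
  have hLH : DD p H ≤ H := by
    unfold DD
    rw [Subgroup.closure_le]
    rintro _ (⟨y, hy, rfl⟩ | ⟨y, hy, y', hy', rfl⟩)
    · exact H.pow_mem hy p
    · exact H.mul_mem (H.mul_mem (H.mul_mem hy hy') (H.inv_mem hy)) (H.inv_mem hy')
  haveI : Nontrivial ↥H := by
    obtain ⟨x, hx, hxK⟩ := SetLike.exists_of_lt c.lt
    refine ⟨⟨⟨x, hx⟩, 1, ?_⟩⟩
    intro h
    apply hxK
    have : x = 1 := congrArg Subtype.val h
    rw [this]; exact K.one_mem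
  obtain ⟨M, hMn, hidx⟩ := XC3_exists_index (p := p) c.hH
  have hcard : Nat.card (↥H ⧸ M) = p := hidx
  haveI : IsCyclic (↥H ⧸ M) := isCyclic_of_prime_card hcard
  letI : CommGroup (↥H ⧸ M) := IsCyclic.commGroup
  have hLM : DD p H ≤ M.map H.subtype := by
    unfold DD
    rw [Subgroup.closure_le]
    rintro _ (⟨y, hy, rfl⟩ | ⟨y, hy, y', hy', rfl⟩)
    · refine ⟨(⟨y, hy⟩ : ↥H) ^ p, ?_, rfl⟩
      show (⟨y, hy⟩ : ↥H) ^ p ∈ M
      rw [← QuotientGroup.eq_one_iff, QuotientGroup.mk_pow, ← hcard]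
      exact pow_card_eq_one'
    · refine ⟨(⟨y, hy⟩ : ↥H) * ⟨y', hy'⟩ * (⟨y, hy⟩ : ↥H)⁻¹ * (⟨y', hy'⟩ : ↥H)⁻¹, ?_, rfl⟩
      show (⟨y, hy⟩ : ↥H) * ⟨y', hy'⟩ * (⟨y, hy⟩ : ↥H)⁻¹ * (⟨y', hy'⟩ : ↥H)⁻¹ ∈ M
      rw [← QuotientGroup.eq_one_iff]
      have : (((⟨y, hy⟩ : ↥H) * ⟨y', hy'⟩ * (⟨y, hy⟩ : ↥H)⁻¹ * (⟨y', hy'⟩ : ↥H)⁻¹ : ↥H) : ↥H ⧸ M)
          = ((⟨y, hy⟩ : ↥H) : ↥H ⧸ M) * ((⟨y', hy'⟩ : ↥H) : ↥H ⧸ M) * ((⟨y, hy⟩ : ↥H) : ↥H ⧸ M)⁻¹
            * ((⟨y', hy'⟩ : ↥H) : ↥H ⧸ M)⁻¹ := rfl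
      rw [this, mul_comm ((⟨y, hy⟩ : ↥H) : ↥H ⧸ M) _]
      group
  have hne : DD p H ≠ H := by
    intro h
    have hMtop : M = ⊤ := by
      rw [eq_top_iff]
      intro x _
      have hx' : (x : G) ∈ DD p H := by rw [h]; exact x.2
      have : (x : G) ∈ M.map H.subtype := hLM hx'
      obtain ⟨y, hy, hyx⟩ := this
      have : y = x := Subtype.ext hyx
      rw [← this]; exact hy
    rw [hMtop, Subgroup.index_top] at hidx
    exact (Fact.out : p.Prime).one_lt.ne hidx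
  have hLK := c.min _ hLn hLH hne
  exact ⟨fun x hx => hLK (Subgroup.subset_closure (Or.inl ⟨x, hx, rfl⟩)),
    fun x hx y hy => hLK (Subgroup.subset_closure (Or.inr ⟨x, hx, y, hy, rfl⟩))⟩

end Cfsg.Agent.Lib.Helper19.Chf
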