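import Cfsg.Agent.Lib.Helper19.Chf.Defs
import Cfsg.Agent.Lib.Helper1.Nilpotent

set_option autoImplicit false
set_option linter.unusedVariables false
set_option linter.unusedSectionVars false

namespace Cfsg.Agent.Lib.Helper19.Chf

open Cfsg Cfsg.Agent.Lib.Helper19.Sch

/-! PIECE CA1 (farm Chf, helper19, row S1895).  PROOF SKETCH:
If E ≤ C(H) the index is 1.  Otherwise: E ≠ ⊥ is normal in the p-group H so E contains z ≠ 1 central in H (IsPGroup.center_nontrivial-type argument: H acts on E by conjugation, fixed points ≡ card E mod p;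
or the repo lemma `normal subgroup of a p-group meets the centre`).  card E = p^2 (card E is a power of p, ≤ p^2; if card E = p then E = <z> is central).  Pick e ∈ E not commuting with all of H; e ∉ <z>, E = <z,e> (order p^2), so
H ⊓ C(E) = H ⊓ C({e}).  Its relIndex in H is the size of the H-conjugacy class of e (orbit-stabilizer), a power of p (divides card H), and the class lies in E \ zpowers z, of size p^2 - p < p^2.  So it is ≤ p.
-/

theorem CA1 {G : Type*} [Group G] [Finite G] {p : ℕ} [Fact p.Prime] (H E : Subgroup G) (hH : IsPGroup p H) (hEn : E.Normal) (hEH : E ≤ H)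
    (hE : IsElementaryAbelian p E) (hcard : Nat.card E ≤ p ^ 2) :
    (H ⊓ Subgroup.centralizer (E : Set G)).relIndex H ≤ p := by
  classical
  have hp : p.Prime := Fact.out
  by_cases hc : H ≤ Subgroup.centralizer (E : Set G)
  · rw [inf_eq_left.2 hc, Subgroup.relIndex_self]
    exact hp.one_lt.le
  -- a non-central element of `E`
  obtain ⟨h0, hh0, hh0c⟩ := SetLike.not_le_iff_exists.1 hc
  rw [Subgroup.mem_centralizer_iff] at hh0c
  push Not at hh0c
  obtain ⟨e, he, hne⟩ := hh0c
  have he' : e ∈ E := he
  have he1 : e ≠ 1 := by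
    rintro rfl
    simp at hne
  -- a central element of `H` in `E`
  obtain ⟨z, hz, hz1, hzc⟩ : ∃ z ∈ E, z ≠ 1 ∧ ∀ h ∈ H, h * z = z * h := by
    haveI : Group.IsNilpotent ↥H := hH.isNilpotent
    haveI : (E.subgroupOf H).Normal := inferInstance
    have hN : E.subgroupOf H ≠ ⊥ := by
      intro hb
      have : (⟨e, hEH he'⟩ : ↥H) ∈ E.subgroupOf H := Subgroup.mem_subgroupOf.2 he'
      rw [hb, Subgroup.mem_bot] at this
      exact he1 (congrArg Subtype.val this)
    have h1 := Cfsg.Agent.Lib.Helper1.normal_inf_center_ne_bot hN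
    obtain ⟨z, hz, hz1⟩ : ∃ z ∈ E.subgroupOf H ⊓ Subgroup.center ↥H, z ≠ 1 := by
      by_contra hcon
      push Not at hcon
      exact h1 ((Subgroup.eq_bot_iff_forall _).2 hcon)
    refine ⟨z.1, Subgroup.mem_subgroupOf.1 hz.1, fun h => hz1 (Subtype.ext h), ?_⟩
    intro h hh
    have := (Subgroup.mem_center_iff.1 hz.2) ⟨h, hh⟩
    exact congrArg Subtype.val this
  -- `E` is generated by `z` and `e`
  have hBE : Subgroup.closure {z, e} ≤ E := by
    rw [Subgroup.closure_le]
    rintro x (rfl | rfl)
    · exact hz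
    · exact he'
  have hBeq : Subgroup.closure {z, e} = E := by
    apply Subgroup.eq_of_le_of_card_ge hBE
    obtain ⟨b, hb⟩ := (hH.to_le (hBE.trans hEH)).exists_card_eq
    have hzB : Subgroup.zpowers z ≤ Subgroup.closure {z, e} := by
      rw [Subgroup.zpowers_le]
      exact Subgroup.subset_closure (by simp)
    have hcz : Nat.card (Subgroup.zpowers z) = p := by
      rw [Nat.card_zpowers]
      exact orderOf_eq_prime (hE.2 z hz) hz1
    have hlt : p < Nat.card (Subgroup.closure {z, e} : Subgroup G) := by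
      by_contra hcon
      push Not at hcon
      have heq := Subgroup.eq_of_le_of_card_ge hzB (by rw [hcz]; exact hcon)
      have heB : e ∈ Subgroup.zpowers z := by
        rw [heq]; exact Subgroup.subset_closure (by simp)
      obtain ⟨k, rfl⟩ := Subgroup.mem_zpowers_iff.1 heB
      apply hne
      have hcm : Commute h0 z := hzc h0 hh0
      exact ((hcm.zpow_right k).eq).symm
    rw [hb] at hlt ⊢
    have hb2 : 2 ≤ b := by
      by_contra hcon
      have hb1 : b ≤ 1 := by omega
      have := Nat.pow_le_pow_right hp.pos hb1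
      rw [pow_one] at this
      omega
    exact hcard.trans (Nat.pow_le_pow_right hp.pos hb2)
  -- the centralizer of `E` in `H` is the centralizer of `e`
  have hCeq : H ⊓ Subgroup.centralizer (E : Set G) = H ⊓ Subgroup.centralizer ({e} : Set G) := by
    apply le_antisymm
    · exact inf_le_inf_left _ (Subgroup.centralizer_le (by simpa using he'))
    · rintro h ⟨hh, hhe⟩
      refine ⟨hh, ?_⟩
      have hle : Subgroup.closure {z, e} ≤ Subgroup.centralizer ({h} : Set G) := by
        rw [Subgroup.closure_le]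
        rintro x (rfl | rfl)
        · show x ∈ Subgroup.centralizer ({h} : Set G)
          rw [Subgroup.mem_centralizer_iff]
          rintro y rfl
          exact hzc y hh
        · show x ∈ Subgroup.centralizer ({h} : Set G)
          rw [Subgroup.mem_centralizer_iff]
          rintro y rfl
          exact ((Subgroup.mem_centralizer_iff.1 hhe) x rfl).symm
      apply Subgroup.mem_centralizer_iff.2
      intro x hx
      have hx' : x ∈ Subgroup.closure {z, e} := by rw [hBeq]; exact hx
      exact ((Subgroup.mem_centralizer_iff.1 (hle hx')) h rfl).symm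
  rw [hCeq]
  show ((H ⊓ Subgroup.centralizer ({e} : Set G)).subgroupOf H).index ≤ p
  set C' := (H ⊓ Subgroup.centralizer ({e} : Set G)).subgroupOf H with hC'
  obtain ⟨n, hn⟩ := hH.index C'
  have hinj : Nat.card (↥H ⧸ C') ≤ Nat.card {x : ↥E // x ≠ 1} := by
    refine Nat.card_le_card_of_injective
      (fun q : ↥H ⧸ C' => (⟨⟨(q.out : G) * e * (q.out : G)⁻¹, hEn.conj_mem e he' _⟩, by
        intro h
        have h' : (q.out : G) * e * (q.out : G)⁻¹ = 1 := congrArg Subtype.val h
        apply he1
        calc e = (q.out : G)⁻¹ * ((q.out : G) * e * (q.out : G)⁻¹) * (q.out : G) := by group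
          _ = 1 := by rw [h']; group⟩ : {x : ↥E // x ≠ 1})) ?_
    intro q q' hqq
    have h1 : (q.out : G) * e * (q.out : G)⁻¹ = (q'.out : G) * e * (q'.out : G)⁻¹ :=
      congrArg (fun x : {x : ↥E // x ≠ 1} => ((x : ↥E) : G)) hqq
    rw [← QuotientGroup.out_eq' q, ← QuotientGroup.out_eq' q', QuotientGroup.eq]
    apply Subgroup.mem_subgroupOf.2
    refine ⟨(q.out⁻¹ * q'.out : ↥H).2, ?_⟩
    apply Subgroup.mem_centralizer_iff.2
    rintro y rfl
    show y * ((q.out : G)⁻¹ * (q'.out : G)) = ((q.out : G)⁻¹ * (q'.out : G)) * y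
    calc y * ((q.out : G)⁻¹ * (q'.out : G))
        = (q.out : G)⁻¹ * ((q.out : G) * y * (q.out : G)⁻¹) * (q'.out : G) := by group
      _ = (q.out : G)⁻¹ * ((q'.out : G) * y * (q'.out : G)⁻¹) * (q'.out : G) := by rw [h1]
      _ = ((q.out : G)⁻¹ * (q'.out : G)) * y := by group
  have hlt : Nat.card {x : ↥E // x ≠ 1} < Nat.card ↥E :=
    Finite.card_subtype_lt (x := (1 : ↥E)) (by simp)
  have hidx : C'.index < p ^ 2 := lt_of_le_of_lt hinj (lt_of_lt_of_le hlt hcard)
  rw [hn] at hidx ⊢
  have hn2 : n < 2 := (Nat.pow_lt_pow_iff_right hp.one_lt).1 hidx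
  calc p ^ n ≤ p ^ 1 := Nat.pow_le_pow_right hp.pos (by omega)
    _ = p := pow_one p

end Cfsg.Agent.Lib.Helper19.Chf
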