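import Cfsg.Agent.Lib.Helper19.Chf.Defs

set_option autoImplicit false
set_option linter.unusedVariables false
set_option linter.unusedSectionVars false

namespace Cfsg.Agent.Lib.Helper19.Chf

open Cfsg Cfsg.Agent.Lib.Helper19.Sch

/-! PIECE PC1 (farm Chf, helper19, row S1895).  PROOF SKETCH:
Strong induction on Nat.card P (generalize over the type P in a fixed universe; subgroups of P inherit hc: an element of a subgroup S of order dividing p is central in P hence in S).
Let x^p = y^p, S := closure {x,y}.  If S ≠ ⊤ apply the induction hypothesis to ↥S.  So P = <x,y>.  If P is cyclic (or commutative): (x⁻¹y)^p = x^-p y^p = 1.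
Otherwise N := normalClosure {y} ≠ ⊤ (if N = ⊤ then P/Φ... : simplest: take a maximal = normal index p subgroup M containing y [P/Frattini is not cyclic as P is not cyclic; or: P/N is generated by the image of x, and if N = ⊤ ...];
alternative that avoids Frattini: P is nilpotent, so if normalClosure {y} = ⊤ then P = <y> [in a nilpotent group a subset generating modulo the commutator subgroup generates: P = N = <y>[P,P]...]; any argument is fine).
y and x y x⁻¹ lie in N and (x y x⁻¹)^p = x y^p x⁻¹ = x x^p x⁻¹ = x^p = y^p; induction in ↥N: c := y⁻¹ (x y x⁻¹) has c^p = 1, so c is central (hc).  So x y x⁻¹ = y c with c central of order dividing p: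
P = <x,y> has class ≤ 2 and (x⁻¹ y)^p = x^-p y^p c'^(p(p-1)/2) with c' = c^±1; p odd so p ∣ p(p-1)/2 and the last factor is 1.
(elementary: from x y = y c x get by induction (x⁻¹ y)^n = x^-n y^n c^(±n(n-1)/2) or use Commute lemmas / `Commute.mul_pow`-like with central c.)
-/

universe u

/-- `(a b)^n` when `b a = c a b` with `c` central -/
theorem PC1_pow {P : Type*} [Group P] (a b c : P) (hcc : ∀ g : P, Commute c g)
    (hba : b * a = c * (a * b)) (n : ℕ) : (a * b) ^ n = c ^ (n.choose 2) * (a ^ n * b ^ n) := by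
  have sw : ∀ (g : P) (k : ℕ), g * c ^ k = c ^ k * g := fun g k => ((hcc g).pow_left k).eq.symm
  have L1 : ∀ n : ℕ, b ^ n * a = c ^ n * (a * b ^ n) := by
    intro n
    induction n with
    | zero => simp
    | succ n ih =>
      calc b ^ (n + 1) * a = b * (b ^ n * a) := by rw [pow_succ', mul_assoc]
        _ = b * (c ^ n * (a * b ^ n)) := by rw [ih]
        _ = c ^ n * (b * a) * b ^ n := by
            rw [← mul_assoc b (c ^ n), sw b n]; simp only [mul_assoc]
        _ = c ^ n * (c * (a * b)) * b ^ n := by rw [hba]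
        _ = c ^ (n + 1) * (a * b ^ (n + 1)) := by
            rw [pow_succ c, pow_succ' b]; simp only [mul_assoc]
  induction n with
  | zero => simp
  | succ n ih =>
    have hch : (n + 1).choose 2 = n.choose 2 + n := by
      rw [Nat.choose_succ_succ' n 1, Nat.choose_one_right, add_comm]
    calc (a * b) ^ (n + 1) = (a * b) ^ n * (a * b) := pow_succ _ _
      _ = c ^ (n.choose 2) * (a ^ n * b ^ n) * (a * b) := by rw [ih]
      _ = c ^ (n.choose 2) * (a ^ n * ((b ^ n * a) * b)) := by simp only [mul_assoc]
      _ = c ^ (n.choose 2) * (a ^ n * ((c ^ n * (a * b ^ n)) * b)) := by rw [L1]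
      _ = c ^ (n.choose 2) * ((a ^ n * c ^ n) * ((a * b ^ n) * b)) := by simp only [mul_assoc]
      _ = c ^ (n.choose 2) * ((c ^ n * a ^ n) * ((a * b ^ n) * b)) := by rw [sw (a ^ n) n]
      _ = c ^ ((n + 1).choose 2) * (a ^ (n + 1) * b ^ (n + 1)) := by
          rw [hch, pow_add, pow_succ a, pow_succ b]; simp only [mul_assoc]

theorem PC1_aux {p : ℕ} [Fact p.Prime] (hp : p ≠ 2) : ∀ (n : ℕ) (P : Type u) [Group P] [Finite P],
    Nat.card P ≤ n → IsPGroup p P → (∀ x : P, x ^ p = 1 → x ∈ Subgroup.center P) →
    ∀ x y : P, x ^ p = y ^ p → (x⁻¹ * y) ^ p = 1 := by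
  intro n
  induction n with
  | zero =>
    intro P _ _ hn
    exact absurd hn (by have := Nat.card_pos (α := P); omega)
  | succ n ih =>
    intro P _ _ hn hP hc x y h
    by_cases hxy : Commute x y
    · rw [(hxy.inv_left).mul_pow, inv_pow, h, inv_mul_cancel]
    have hH : Subgroup.zpowers y ≠ ⊤ := by
      intro htop
      apply hxy
      have hx : x ∈ Subgroup.zpowers y := by rw [htop]; trivial
      obtain ⟨k, rfl⟩ := Subgroup.mem_zpowers_iff.1 hx
      exact (Commute.refl y).zpow_left k
    obtain ⟨M, hM, hle⟩ := (eq_top_or_exists_le_coatom (Subgroup.zpowers y)).resolve_left hH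
    haveI : Group.IsNilpotent P := hP.isNilpotent
    have hMn : M.Normal :=
      Subgroup.NormalizerCondition.normal_of_coatom M Group.normalizerCondition_of_isNilpotent hM
    have hyM : y ∈ M := hle (Subgroup.mem_zpowers y)
    have hwM : x * y * x⁻¹ ∈ M := hMn.conj_mem y hyM x
    have hcard : Nat.card M ≤ n := by
      have hlt : Nat.card M < Nat.card P := by
        rcases lt_or_eq_of_le (Subgroup.card_le_card_group M) with h1 | h1
        · exact h1
        · exact absurd (Subgroup.eq_top_of_card_eq M h1) hM.1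
      omega
    have hcM : ∀ z : M, z ^ p = 1 → z ∈ Subgroup.center M := by
      intro z hz
      have h1 : (z : P) ∈ Subgroup.center P := hc z (by
        have := congrArg Subtype.val hz
        simpa using this)
      rw [Subgroup.mem_center_iff] at h1 ⊢
      intro g
      exact Subtype.ext (h1 g)
    have hpw : (x * y * x⁻¹) ^ p = y ^ p := by
      rw [conj_pow, ← h]; group
    have h2 := ih M hcard (hP.to_subgroup M) hcM ⟨y, hyM⟩ ⟨x * y * x⁻¹, hwM⟩
      (Subtype.ext hpw.symm)
    have h3 : (y⁻¹ * (x * y * x⁻¹)) ^ p = 1 := by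
      have := congrArg Subtype.val h2
      simpa using this
    set c : P := y⁻¹ * (x * y * x⁻¹) with hcdef
    have hcen : c ∈ Subgroup.center P := hc c h3
    have hcc : ∀ g : P, Commute c g := fun g => ((Subgroup.mem_center_iff.1 hcen) g).symm
    have hba : y * x⁻¹ = c * (x⁻¹ * y) := by
      have e1 : c * (x⁻¹ * y) = (x⁻¹ * y) * c := (hcc (x⁻¹ * y)).eq
      rw [e1, hcdef]; group
    rw [PC1_pow x⁻¹ y c hcc hba p, inv_pow, h, inv_mul_cancel, mul_one]
    have hp3 : 2 < p := by
      have := (Fact.out : p.Prime).two_le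
      omega
    obtain ⟨k, hk⟩ := (Fact.out : p.Prime).dvd_choose_self (by norm_num : (2 : ℕ) ≠ 0) hp3
    rw [hk, pow_mul, h3, one_pow]

theorem PC1 {p : ℕ} [Fact p.Prime] (hp : p ≠ 2) {P : Type*} [Group P] [Finite P] (hP : IsPGroup p P)
    (hc : ∀ x : P, x ^ p = 1 → x ∈ Subgroup.center P) (x y : P) (h : x ^ p = y ^ p) : (x⁻¹ * y) ^ p = 1 :=
  PC1_aux hp (Nat.card P) P le_rfl hP hc x y h

end Cfsg.Agent.Lib.Helper19.Chf
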