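import Cfsg.Agent.Lib.Helper19.Chf.Defs
import Cfsg.Agent.Lib.Helper19.Chf.PC1

set_option autoImplicit false
set_option linter.unusedVariables false
set_option linter.unusedSectionVars false

namespace Cfsg.Agent.Lib.Helper19.Chf

open Cfsg Cfsg.Agent.Lib.Helper19.Sch

/-! PIECE PC2 (farm Chf, helper19, row S1895).  PROOF SKETCH:
f : P → M, x ↦ x^p.  Fibres: f x = f y ⟹ x⁻¹ y ∈ E := {e | e^p = 1} (PC1), so each fibre injects into E (y ↦ x⁻¹ y).  Hence card P ≤ card M * card E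
(Finset.card_le_mul_card_image / Fintype.card_le_mul_card_of_fibers..., or card_eq_sum_card_fiberwise), and card P = M.index * card M (Subgroup.index_mul_card): M.index ≤ card E.
-/

theorem PC2 {p : ℕ} [Fact p.Prime] (hp : p ≠ 2) {P : Type*} [Group P] [Finite P] (hP : IsPGroup p P)
    (hc : ∀ x : P, x ^ p = 1 → x ∈ Subgroup.center P) (M : Subgroup P) (hM : ∀ x : P, x ^ p ∈ M) :
    M.index ≤ Nat.card {x : P // x ^ p = 1} := by
  classical
  -- an injection `P → M × E`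
  have hinj : ∃ f : P → ↥M × {x : P // x ^ p = 1}, Function.Injective f := by
    -- choose a representative of each fibre
    let r : ↥M → P := fun m => if h : ∃ x : P, x ^ p = (m : P) then h.choose else 1
    have hr : ∀ x : P, (r ⟨x ^ p, hM x⟩) ^ p = x ^ p := by
      intro x
      have h : ∃ z : P, z ^ p = ((⟨x ^ p, hM x⟩ : ↥M) : P) := ⟨x, rfl⟩
      have : r ⟨x ^ p, hM x⟩ = h.choose := dif_pos h
      rw [this]
      exact h.choose_spec
    refine ⟨fun x => (⟨x ^ p, hM x⟩, ⟨(r ⟨x ^ p, hM x⟩)⁻¹ * x, PC1 hp hP hc _ _ (hr x)⟩), ?_⟩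
    intro x y hxy
    have h1 : (⟨x ^ p, hM x⟩ : ↥M) = ⟨y ^ p, hM y⟩ := congrArg Prod.fst hxy
    have h2 : (r ⟨x ^ p, hM x⟩)⁻¹ * x = (r ⟨y ^ p, hM y⟩)⁻¹ * y :=
      congrArg (fun z => (z.2 : P)) hxy
    rw [h1] at h2
    exact mul_left_cancel h2
  obtain ⟨f, hf⟩ := hinj
  have h1 : Nat.card P ≤ Nat.card (↥M × {x : P // x ^ p = 1}) := Nat.card_le_card_of_injective f hf
  rw [Nat.card_prod, ← M.index_mul_card, mul_comm] at h1
  exact Nat.le_of_mul_le_mul_left h1 Nat.card_pos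

end Cfsg.Agent.Lib.Helper19.Chf
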