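import Cfsg.Agent.Lib.Helper19.Chf.Defs
import Cfsg.Agent.Lib.Helper19.Chf.C1
import Cfsg.Agent.Lib.Helper19.Chf.C2
import Cfsg.Agent.Lib.Helper19.Chf.PC2
import Cfsg.Agent.Lib.Helper19.Chf.CA1

set_option autoImplicit false
set_option linter.unusedVariables false
set_option linter.unusedSectionVars false

namespace Cfsg.Agent.Lib.Helper19.Chf

open Cfsg Cfsg.Agent.Lib.Helper19.Sch

/-! PIECE CA2 (farm Chf, helper19, row S1895). -/

theorem CA2 {G : Type*} [Group G] [Finite G] {p : ℕ} [Fact p.Prime] {H K : Subgroup G} (c : Cfg p H K) (E : Subgroup G) (hEn : E.Normal) (hEH : E ≤ H)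
    (hE : IsElementaryAbelian p E) (hcard : Nat.card E = p ^ 2) : K.relIndex H ≤ p ^ 2 := by
  classical
  have hp : p.Prime := Fact.out
  haveI := c.hHn
  haveI := hEn
  have hLn : (H ⊓ Subgroup.centralizer (E : Set G)).Normal := inferInstance
  by_cases hL : H ⊓ Subgroup.centralizer (E : Set G) = H
  · -- E central in H
    have hHc : H ≤ Subgroup.centralizer (E : Set G) := inf_eq_left.mp hL
    have hcomm : ∀ e ∈ E, ∀ g ∈ H, e * g = g * e := fun e he g hg =>
      (Subgroup.mem_centralizer_iff.mp (hHc hg)) e he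
    have hEcomm : ∀ a ∈ E, ∀ b ∈ E, a * b = b * a := fun a ha b hb => hcomm a ha b (hEH hb)
    have key : ∀ x ∈ H, x ^ p = 1 → x ∈ E := by
      intro x hx hxp
      have hz : ∀ z ∈ Subgroup.zpowers x, z ∈ H ∧ z ^ p = 1 := by
        rintro z ⟨k, rfl⟩
        refine ⟨H.zpow_mem hx k, ?_⟩
        show (x ^ k) ^ p = 1
        rw [← zpow_natCast, ← zpow_mul, mul_comm, zpow_mul, zpow_natCast, hxp, one_zpow]
      have hzz : ∀ z ∈ Subgroup.zpowers x, ∀ z' ∈ Subgroup.zpowers x, z * z' = z' * z := by
        rintro z ⟨k, rfl⟩ z' ⟨k', rfl⟩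
        show x ^ k * x ^ k' = x ^ k' * x ^ k
        rw [← zpow_add, ← zpow_add, add_comm]
      have hAc : IsMulCommutative ↥(E ⊔ Subgroup.zpowers x) := by
        refine ⟨⟨fun a b => Subtype.ext ?_⟩⟩
        obtain ⟨e, he, z, hz', hab⟩ := Subgroup.mem_sup_of_normal_left.mp a.2
        obtain ⟨e', he', z', hz'', hab'⟩ := Subgroup.mem_sup_of_normal_left.mp b.2
        show a.1 * b.1 = b.1 * a.1
        rw [← hab, ← hab']
        have c1 := hcomm e' he' z (hz z hz').1
        have c2 := hcomm e he z' (hz z' hz'').1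
        have c3 := hEcomm e he e' he'
        have c4 := hzz z hz' z' hz''
        calc e * z * (e' * z') = e * (z * e') * z' := by group
          _ = e * (e' * z) * z' := by rw [c1]
          _ = (e * e') * (z * z') := by group
          _ = (e' * e) * (z' * z) := by rw [c3, c4]
          _ = e' * (e * z') * z := by group
          _ = e' * (z' * e) * z := by rw [c2]
          _ = e' * z' * (e * z) := by group
      have hAe : ∀ a ∈ E ⊔ Subgroup.zpowers x, a ^ p = 1 := by
        intro a ha
        obtain ⟨e, he, z, hz', hab⟩ := Subgroup.mem_sup_of_normal_left.mp ha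
        rw [← hab, (show Commute e z from hcomm e he z (hz z hz').1).mul_pow, hE.2 e he, (hz z hz').2,
          one_mul]
      have hAcard := c.rank _ hAc hAe
      have hEA : E = E ⊔ Subgroup.zpowers x :=
        Subgroup.eq_of_le_of_card_ge le_sup_left (by rw [hcard]; exact hAcard)
      rw [hEA]
      exact (le_sup_right : Subgroup.zpowers x ≤ E ⊔ Subgroup.zpowers x) (Subgroup.mem_zpowers x)
    have hxE : ∀ x : H, x ^ p = 1 → x.1 ∈ E := by
      intro x hx
      apply key x.1 x.2
      have := congrArg Subtype.val hx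
      simpa using this
    have h1 : (K.subgroupOf H).index ≤ Nat.card {x : H // x ^ p = 1} := by
      apply PC2 c.odd c.hH
      · intro x hx
        rw [Subgroup.mem_center_iff]
        intro g
        apply Subtype.ext
        show g.1 * x.1 = x.1 * g.1
        exact (hcomm x.1 (hxE x hx) g.1 g.2).symm
      · intro x
        rw [Subgroup.mem_subgroupOf]
        show x.1 ^ p ∈ K
        exact (C2 c).1 x.1 x.2
    have h2 : Nat.card {x : H // x ^ p = 1} ≤ Nat.card E := by
      apply Nat.card_le_card_of_injective (fun x => (⟨x.1.1, hxE x.1 x.2⟩ : E))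
      intro a b hab
      apply Subtype.ext
      apply Subtype.ext
      exact congrArg (fun e : E => e.1) hab
    calc K.relIndex H = (K.subgroupOf H).index := rfl
      _ ≤ Nat.card {x : H // x ^ p = 1} := h1
      _ ≤ Nat.card E := h2
      _ = p ^ 2 := hcard
  · calc K.relIndex H ≤ (H ⊓ Subgroup.centralizer (E : Set G)).relIndex H := C1 c _ hLn inf_le_left hL
      _ ≤ p := CA1 H E c.hH hEn hEH hE hcard.le
      _ ≤ p ^ 2 := by nlinarith [hp.pos]

end Cfsg.Agent.Lib.Helper19.Chf
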