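import Cfsg.Agent.Lib.Helper19.Chf.Defs

set_option autoImplicit false
set_option linter.unusedVariables false
set_option linter.unusedSectionVars false

namespace Cfsg.Agent.Lib.Helper19.Chf

open Cfsg Cfsg.Agent.Lib.Helper19.Sch

/-! PIECE CB1 (farm Chf, helper19, row S1895). -/

theorem CB1_count {A : Type*} [Group A] [Finite A] (hcomm : ∀ a b : A, a * b = b * a) (p : ℕ)
    (hΩ : Nat.card {a : A // a ^ p = 1} ≤ p) :
    ∀ (n : ℕ) (B : Subgroup A), (∀ b ∈ B, b ^ (p ^ n) = 1) → Nat.card B ≤ p ^ n := by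
  intro n
  induction n with
  | zero =>
    intro B hB
    have : B = ⊥ := by
      rw [eq_bot_iff]
      intro b hb
      have := hB b hb
      simpa using this
    rw [this]; simp
  | succ n ih =>
    intro B hB
    let f : A →* A := MonoidHom.mk' (fun a => a ^ p)
      (fun a b => (show Commute a b from hcomm a b).mul_pow p)
    let g : ↥B →* A := f.comp B.subtype
    have h1 : Nat.card g.ker * g.ker.index = Nat.card B := Subgroup.card_mul_index g.ker
    have h2 : g.ker.index = Nat.card g.range := Subgroup.index_ker g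
    have h3 : Nat.card g.range ≤ p ^ n := by
      apply ih
      rintro _ ⟨b, rfl⟩
      show ((b : A) ^ p) ^ (p ^ n) = 1
      rw [← pow_mul, ← pow_succ']
      exact hB b b.2
    have h4 : Nat.card g.ker ≤ p := by
      refine le_trans ?_ hΩ
      apply Nat.card_le_card_of_injective
        (fun k : g.ker => (⟨((k : ↥B) : A), MonoidHom.mem_ker.mp k.2⟩ : {a : A // a ^ p = 1}))
      intro k k' e
      have e' : ((k : ↥B) : A) = ((k' : ↥B) : A) := (Subtype.ext_iff.mp e :)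
      exact Subtype.ext (Subtype.ext e')
    calc Nat.card B = Nat.card g.ker * Nat.card g.range := by rw [← h1, h2]
      _ ≤ p * p ^ n := Nat.mul_le_mul h4 h3
      _ = p ^ (n + 1) := by ring

theorem CB1_cyclic {A : Type*} [Group A] [Finite A] (hcomm : ∀ a b : A, a * b = b * a) {p : ℕ}
    [Fact p.Prime] (hA : IsPGroup p A) (hΩ : Nat.card {a : A // a ^ p = 1} ≤ p) : IsCyclic A := by
  have hp : p.Prime := Fact.out
  obtain ⟨y, hy⟩ := Finite.exists_max (fun g : A => orderOf g)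
  have hord : ∀ g : A, ∃ k : ℕ, orderOf g = p ^ k := fun g => IsPGroup.iff_orderOf.mp hA g
  obtain ⟨n, hn⟩ := hord y
  have hexp : ∀ g : A, g ^ (p ^ n) = 1 := by
    intro g
    obtain ⟨k, hk⟩ := hord g
    have hle : p ^ k ≤ p ^ n := by
      have := hy g
      rwa [hn, hk] at this
    have hkn : k ≤ n := (Nat.pow_le_pow_iff_right hp.one_lt).mp hle
    apply orderOf_dvd_iff_pow_eq_one.mp
    rw [hk]
    exact Nat.pow_dvd_pow p hkn
  have hc := CB1_count hcomm p hΩ n ⊤ (fun a _ => hexp a)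
  rw [Subgroup.card_top] at hc
  apply isCyclic_of_orderOf_eq_card y
  apply le_antisymm (Nat.le_of_dvd Nat.card_pos (orderOf_dvd_natCard y))
  rw [hn]; exact hc

theorem CB1 {G : Type*} [Group G] [Finite G] {p : ℕ} [Fact p.Prime] {H K : Subgroup G} (c : Cfg p H K) (hno : NoE2 p H) (A : Subgroup G) (hAn : A.Normal) (hAH : A ≤ H)
    (hAab : IsMulCommutative A) : IsCyclic A := by
  have hp : p.Prime := Fact.out
  have hc : ∀ a ∈ A, ∀ b ∈ A, a * b = b * a := by
    intro a ha b hb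
    exact congrArg Subtype.val (hAab.is_comm.comm (⟨a, ha⟩ : A) ⟨b, hb⟩)
  let E : Subgroup G :=
    { carrier := {a | a ∈ A ∧ a ^ p = 1}
      mul_mem' := fun {a b} ha hb => ⟨A.mul_mem ha.1 hb.1, by
        rw [(show Commute a b from hc a ha.1 b hb.1).mul_pow, ha.2, hb.2, one_mul]⟩
      one_mem' := ⟨A.one_mem, one_pow p⟩
      inv_mem' := fun {a} ha => ⟨A.inv_mem ha.1, by rw [inv_pow, ha.2, inv_one]⟩ }
  have hEmem : ∀ a : G, a ∈ E ↔ a ∈ A ∧ a ^ p = 1 := fun a => Iff.rfl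
  have hEn : E.Normal := by
    constructor
    intro a ha g
    rw [hEmem] at ha ⊢
    exact ⟨hAn.conj_mem a ha.1 g, by rw [conj_pow, ha.2, mul_one, mul_inv_cancel]⟩
  have hEA : E ≤ A := fun a ha => ha.1
  have hEH : E ≤ H := hEA.trans hAH
  have hEc : IsMulCommutative E := ⟨⟨fun x y => Subtype.ext (hc x.1 x.2.1 y.1 y.2.1)⟩⟩
  have hEp : ∀ a ∈ E, a ^ p = 1 := fun a ha => ha.2
  have hle2 : Nat.card E ≤ p ^ 2 := c.rank E hEc hEp
  have hne2 : Nat.card E ≠ p ^ 2 := hno E hEn hEH ⟨hEc, hEp⟩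
  have hEle : Nat.card E ≤ p := by
    obtain ⟨k, hk⟩ := IsPGroup.iff_card.mp (c.hH.to_le hEH)
    rw [hk] at hle2 hne2 ⊢
    have hk2 : k ≤ 2 := (Nat.pow_le_pow_iff_right hp.one_lt).mp hle2
    have hk2' : k ≠ 2 := fun e => hne2 (by rw [e])
    have hk1 : k ≤ 1 := by omega
    calc p ^ k ≤ p ^ 1 := Nat.pow_le_pow_right hp.pos hk1
      _ = p := pow_one p
  apply CB1_cyclic (p := p) (fun a b => Subtype.ext (hc a.1 a.2 b.1 b.2)) (c.hH.to_le hAH)
  refine le_trans ?_ hEle
  apply Nat.card_le_card_of_injective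
    (fun a : {a : ↥A // a ^ p = 1} => (⟨a.1.1, ⟨a.1.2, congrArg Subtype.val a.2⟩⟩ : ↥E))
  intro a b e
  have e' : ((a : ↥A) : G) = ((b : ↥A) : G) := (Subtype.ext_iff.mp e :)
  exact Subtype.ext (Subtype.ext e')

end Cfsg.Agent.Lib.Helper19.Chf
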