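import Cfsg.Agent.Lib.Helper19.Chf.Defs
import Cfsg.Agent.Lib.Helper19.Chf.C1
import Cfsg.Agent.Lib.Helper19.Chf.C2

set_option autoImplicit false
set_option linter.unusedVariables false
set_option linter.unusedSectionVars false
set_option linter.style.haveILetI false

namespace Cfsg.Agent.Lib.Helper19.Chf

open Cfsg Cfsg.Agent.Lib.Helper19.Sch

/-! PIECE CB2 (farm Chf, helper19, row S1895). -/

theorem CB2 {G : Type*} [Group G] [Finite G] {p : ℕ} [Fact p.Prime] {H K : Subgroup G} (c : Cfg p H K) (A : Subgroup G) (hAn : A.Normal) (hAH : A ≤ H) (hcyc : IsCyclic A) :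
    A ≤ Subgroup.centralizer (H : Set G) ∨ K.relIndex H ≤ p := by
  classical
  haveI := c.hKn
  haveI := c.hHn
  have hp : p.Prime := Fact.out
  -- MulAut A is cyclic
  have hAp : IsPGroup p A := c.hH.to_le hAH
  obtain ⟨m, hm⟩ := IsPGroup.iff_card.mp hAp
  haveI hcycAut : IsCyclic (MulAut A) := by
    haveI : IsCyclic (ZMod (Nat.card A))ˣ := by
      rw [hm]
      exact ZMod.isCyclic_units_of_prime_pow p hp c.odd m
    exact isCyclic_of_surjective (IsCyclic.mulAutMulEquiv A).symm (IsCyclic.mulAutMulEquiv A).symm.surjective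
  let φ : ↥H →* MulAut A := (MulAut.conjNormal (H := A)).comp H.subtype
  have hφ : ∀ (h : ↥H) (a : ↥A), ((φ h a : ↥A) : G) = h * a * (h : G)⁻¹ := by
    intro h a
    rfl
  set L : Subgroup G := H ⊓ Subgroup.centralizer (A : Set G) with hL
  haveI hCn : (Subgroup.centralizer (A : Set G)).Normal := inferInstance
  have hLn : L.Normal := inferInstance
  have hLH : L ≤ H := inf_le_left
  by_cases hLeq : L = H
  · left
    intro a ha
    rw [Subgroup.mem_centralizer_iff]
    intro h hh
    have h1 : h ∈ L := hLeq ▸ hh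
    exact ((Subgroup.mem_centralizer_iff.mp h1.2) a ha).symm
  right
  have hLK : L ≤ K := c.min L hLn hLH hLeq
  haveI : (K.subgroupOf H).Normal := inferInstance
  have hker : ∀ h : ↥H, φ h = 1 → (h : G) ∈ K := by
    intro h hh
    apply hLK
    refine ⟨h.2, ?_⟩
    show (h : G) ∈ Subgroup.centralizer (A : Set G)
    rw [Subgroup.mem_centralizer_iff]
    intro a ha
    have h1 := hφ h ⟨a, ha⟩
    rw [hh] at h1
    have h2 : a = h * a * (h : G)⁻¹ := h1
    calc a * (h : G) = (h * a * (h : G)⁻¹) * h := by rw [← h2]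
      _ = h * a := by group
  haveI : IsCyclic φ.range := inferInstance
  obtain ⟨⟨g, ⟨h0, rfl⟩⟩, hg⟩ := IsCyclic.exists_generator (α := φ.range)
  haveI : IsCyclic (↥H ⧸ K.subgroupOf H) := by
    refine ⟨⟨QuotientGroup.mk' (K.subgroupOf H) h0, ?_⟩⟩
    intro q
    obtain ⟨x, rfl⟩ := QuotientGroup.mk'_surjective (K.subgroupOf H) q
    obtain ⟨i, hi⟩ := Subgroup.mem_zpowers_iff.mp (hg ⟨φ x, ⟨x, rfl⟩⟩)
    have hi' : φ h0 ^ i = φ x := by
      have := congrArg Subtype.val hi
      simpa using this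
    refine ⟨i, ?_⟩
    show (QuotientGroup.mk' (K.subgroupOf H) h0) ^ i = QuotientGroup.mk' (K.subgroupOf H) x
    rw [← map_zpow]
    apply (QuotientGroup.eq).2
    rw [Subgroup.mem_subgroupOf]
    apply hker
    rw [map_mul, map_inv, map_zpow, hi', inv_mul_cancel]
  have hexp : Monoid.exponent (↥H ⧸ K.subgroupOf H) ∣ p := by
    apply Monoid.exponent_dvd_of_forall_pow_eq_one
    intro q
    obtain ⟨x, rfl⟩ := QuotientGroup.mk'_surjective (K.subgroupOf H) q
    rw [← map_pow]
    apply (QuotientGroup.eq_one_iff _).2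
    rw [Subgroup.mem_subgroupOf]
    exact (C2 c).1 x x.2
  rw [IsCyclic.exponent_eq_card] at hexp
  exact Nat.le_of_dvd hp.pos hexp

end Cfsg.Agent.Lib.Helper19.Chf
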