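import Cfsg.Agent.Lib.Helper19.Chf.Defs
import Cfsg.Agent.Lib.Helper19.Chf.C2

set_option autoImplicit false
set_option linter.unusedVariables false
set_option linter.unusedSectionVars false

namespace Cfsg.Agent.Lib.Helper19.Chf

open Cfsg Cfsg.Agent.Lib.Helper19.Sch

/-! PIECE CB3 (farm Chf, helper19, row S1895).  PROOF SKETCH:
H = zpowers h0, h0^p ∈ K (C2): the cosets of K in H are h0^i K, 0 ≤ i < p.  (K.subgroupOf H has index ≤ p: the quotient is cyclic generated by an element of order dividing p.)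
-/

theorem CB3 {G : Type*} [Group G] [Finite G] {p : ℕ} [Fact p.Prime] {H K : Subgroup G} (c : Cfg p H K) (hcyc : IsCyclic H) : K.relIndex H ≤ p := by
  haveI := c.hKn
  haveI : (K.subgroupOf H).Normal := inferInstance
  haveI : IsCyclic (↥H ⧸ K.subgroupOf H) :=
    isCyclic_of_surjective (QuotientGroup.mk' (K.subgroupOf H)) (QuotientGroup.mk'_surjective _)
  have hexp : Monoid.exponent (↥H ⧸ K.subgroupOf H) ∣ p := by
    apply Monoid.exponent_dvd_of_forall_pow_eq_one
    intro q
    obtain ⟨x, rfl⟩ := QuotientGroup.mk'_surjective (K.subgroupOf H) q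
    rw [← map_pow]
    apply (QuotientGroup.eq_one_iff _).2
    rw [Subgroup.mem_subgroupOf]
    exact (C2 c).1 x x.2
  rw [IsCyclic.exponent_eq_card] at hexp
  exact Nat.le_of_dvd (Fact.out : p.Prime).pos hexp

end Cfsg.Agent.Lib.Helper19.Chf
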