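import Cfsg.Agent.Lib.Helper19.Chf.Defs

set_option autoImplicit false
set_option linter.unusedVariables false
set_option linter.unusedSectionVars false

namespace Cfsg.Agent.Lib.Helper19.Chf

open Cfsg Cfsg.Agent.Lib.Helper19.Sch

/-! PIECE CB4 (farm Chf, helper19, row S1895). -/

theorem CB4 {G : Type*} [Group G] [Finite G] {p : ℕ} [Fact p.Prime] (H : Subgroup G) (hHn : H.Normal) (hH : IsPGroup p H) (hna : ZZ H ≠ H) :
    ∃ T : Subgroup G, T.Normal ∧ ZZ H < T ∧ TCfg p H T := by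
  have hp : p.Prime := Fact.out
  have hZn : (ZZ H).Normal := by
    unfold ZZ
    infer_instance
  set Z : Subgroup G := ZZ H with hZ
  have hZH : Z ≤ H := inf_le_left
  set f : G →* G ⧸ Z := QuotientGroup.mk' Z with hf
  have hfs : Function.Surjective f := QuotientGroup.mk'_surjective Z
  have hf1 : ∀ x : G, f x = 1 ↔ x ∈ Z := fun x => QuotientGroup.eq_one_iff x
  set Hb : Subgroup (G ⧸ Z) := H.map f with hHb
  have hHbn : Hb.Normal := hHn.map f hfs
  have hHbp : IsPGroup p Hb := hH.map f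
  have hHbnt : Nontrivial ↥Hb := by
    rw [Subgroup.nontrivial_iff_ne_bot]
    intro hbot
    apply hna
    apply le_antisymm hZH
    intro x hx
    have h1 : f x ∈ Hb := Subgroup.mem_map_of_mem f hx
    rw [hbot, Subgroup.mem_bot] at h1
    exact (hf1 x).mp h1
  -- an element of order p in the centre of Hb
  have hcnt : Nontrivial (Subgroup.center ↥Hb) := hHbp.center_nontrivial
  have hcp : IsPGroup p (Subgroup.center ↥Hb) := hHbp.to_subgroup _
  have hdvd : p ∣ Nat.card (Subgroup.center ↥Hb) := by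
    obtain ⟨k, hk⟩ := IsPGroup.iff_card.mp hcp
    have hk0 : k ≠ 0 := by
      rintro rfl
      have h1 : 1 < Nat.card (Subgroup.center ↥Hb) := Finite.one_lt_card
      rw [hk] at h1
      simp at h1
    rw [hk]
    exact dvd_pow_self p hk0
  obtain ⟨z, hz⟩ := exists_prime_orderOf_dvd_card' (G := ↥(Subgroup.center ↥Hb)) p hdvd
  have hz1 : z ≠ 1 := by
    intro e
    rw [e, orderOf_one] at hz
    exact hp.one_lt.ne hz
  have hzp : z ^ p = 1 := by rw [← hz]; exact pow_orderOf_eq_one z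
  set x : G ⧸ Z := ((z : ↥Hb) : G ⧸ Z) with hx
  have hxHb : x ∈ Hb := (z : ↥Hb).2
  have hx1 : x ≠ 1 := by
    intro e
    apply hz1
    exact Subtype.ext (Subtype.ext e)
  have hxp : x ^ p = 1 := by
    have := congrArg (fun u : ↥(Subgroup.center ↥Hb) => ((u : ↥Hb) : G ⧸ Z)) hzp
    simpa using this
  have hxc : ∀ y ∈ Hb, y * x = x * y := by
    intro y hy
    have := Subgroup.mem_center_iff.mp z.2 ⟨y, hy⟩
    exact congrArg Subtype.val this
  -- the subgroup Tb
  let Tb : Subgroup (G ⧸ Z) :=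
    { carrier := {u | u ∈ Hb ∧ (∀ y ∈ Hb, y * u = u * y) ∧ u ^ p = 1}
      mul_mem' := fun {a b} ha hb => ⟨Hb.mul_mem ha.1 hb.1, fun y hy => by
          rw [← mul_assoc, ha.2.1 y hy, mul_assoc, hb.2.1 y hy, mul_assoc], by
          rw [(show Commute a b from (hb.2.1 a ha.1)).mul_pow, ha.2.2, hb.2.2, one_mul]⟩
      one_mem' := ⟨Hb.one_mem, fun y _ => by rw [mul_one, one_mul], one_pow p⟩
      inv_mem' := fun {a} ha => ⟨Hb.inv_mem ha.1, fun y hy => by
          have := ha.2.1 y hy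
          calc y * a⁻¹ = a⁻¹ * (a * y) * a⁻¹ := by group
            _ = a⁻¹ * (y * a) * a⁻¹ := by rw [this]
            _ = a⁻¹ * y := by group, by rw [inv_pow, ha.2.2, inv_one]⟩ }
  have hTbmem : ∀ u, u ∈ Tb ↔ u ∈ Hb ∧ (∀ y ∈ Hb, y * u = u * y) ∧ u ^ p = 1 := fun u => Iff.rfl
  have hTbn : Tb.Normal := by
    constructor
    intro a ha g
    rw [hTbmem] at ha ⊢
    refine ⟨hHbn.conj_mem a ha.1 g, ?_, by rw [conj_pow, ha.2.2, mul_one, mul_inv_cancel]⟩
    intro y hy
    have hy' : g⁻¹ * y * g ∈ Hb := by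
      have := hHbn.conj_mem y hy g⁻¹
      simpa using this
    have := ha.2.1 _ hy'
    calc y * (g * a * g⁻¹) = g * ((g⁻¹ * y * g) * a) * g⁻¹ := by group
      _ = g * (a * (g⁻¹ * y * g)) * g⁻¹ := by rw [this]
      _ = g * a * g⁻¹ * y := by group
  have hxTb : x ∈ Tb := ⟨hxHb, hxc, hxp⟩
  refine ⟨Tb.comap f, hTbn.comap f, ?_, ?_⟩
  · rw [lt_iff_le_and_ne]
    constructor
    · intro u hu
      rw [Subgroup.mem_comap, (hf1 u).mpr hu]
      exact Tb.one_mem
    · intro e
      obtain ⟨t, ht⟩ := hfs x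
      have h1 : t ∈ Tb.comap f := by rw [Subgroup.mem_comap, ht]; exact hxTb
      rw [← e] at h1
      exact hx1 (ht ▸ (hf1 t).mpr h1)
  · have hle : Tb.comap f ≤ H := by
      intro t ht
      have h1 : f t ∈ Hb := ((hTbmem _).mp (Subgroup.mem_comap.mp ht)).1
      obtain ⟨h, hh, hht⟩ := h1
      have h2 : f (h⁻¹ * t) = 1 := by rw [map_mul, map_inv, hht, inv_mul_cancel]
      have h3 : h⁻¹ * t ∈ H := hZH ((hf1 _).mp h2)
      have : t = h * (h⁻¹ * t) := by group
      rw [this]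
      exact H.mul_mem hh h3
    refine ⟨hle, ?_, ?_⟩
    · intro t ht
      have h1 := ((hTbmem _).mp (Subgroup.mem_comap.mp ht)).2.2
      rw [← hf1, map_pow]
      exact h1
    · intro t ht h hh
      have h1 := ((hTbmem _).mp (Subgroup.mem_comap.mp ht)).2.1 (f h) (Subgroup.mem_map_of_mem f hh)
      rw [← hf1, map_mul, map_mul, map_mul, map_inv, map_inv, ← h1]
      group

end Cfsg.Agent.Lib.Helper19.Chf
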