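import Cfsg.Agent.Lib.Helper19.Chf.Defs
import Cfsg.Agent.Lib.Helper29.AlperinExp

set_option autoImplicit false
set_option linter.unusedVariables false
set_option linter.unusedSectionVars false

namespace Cfsg.Agent.Lib.Helper19.Chf

open Cfsg Cfsg.Agent.Lib.Helper19.Sch
open scoped commutatorElement

/-! PIECE CB5a (farm Chf, helper19, row S1895).  PROOF SKETCH:
c := x*y*x⁻¹*y⁻¹ ∈ ZZ H commutes with x and y (both in H).  c^p = 1: conjugation: x y x⁻¹ = c y, so x y^... use instead y ↦ x*y*x⁻¹*y⁻¹ multiplicative in x: (x^p) y (x^p)⁻¹ y⁻¹ = c^p (induction, c central) and x^p ∈ ZZ H commutes with y, so c^p = 1.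
(x y)^n = x^n y^n c^(-n(n-1)/2) (or the sign that comes out) by induction on n using y x = c⁻¹ x y; n = p odd: p ∣ p(p-1)/2, so the c-factor is 1.
-/

theorem CB5a {G : Type*} [Group G] [Finite G] {p : ℕ} [Fact p.Prime] (hp : p ≠ 2) {H T : Subgroup G} (t : TCfg p H T) :
    ∀ x ∈ T, ∀ y ∈ T, (x * y) ^ p = x ^ p * y ^ p := by
  intro x hx y hy
  have hpp : p.Prime := Fact.out
  have hxH := t.le hx
  have hyH := t.le hy
  have hc : ⁅y, x⁆ ∈ ZZ H := t.comm y hy x hxH
  have hcen := Subgroup.mem_centralizer_iff.1 hc.2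
  have h2 : Commute ⁅y, x⁆ x := (hcen x hxH).symm
  have h3 : Commute ⁅y, x⁆ y := (hcen y hyH).symm
  have hyp : Commute (y ^ p) x := ((Subgroup.mem_centralizer_iff.1 (t.pow y hy).2) x hxH).symm
  have h4 : ⁅y, x⁆ ^ p = 1 :=
    Cfsg.Agent.Lib.Helper29.commutator_pow_eq_one_of_commute x y h2 h3 p hyp
  have hdvd : p ∣ p.choose 2 := by
    have := Cfsg.Agent.Lib.Helper29.dvd_choose_two_of_pow_ne_two (n := 1) hpp one_ne_zero
      (by rw [pow_one]; exact hp)
    rwa [pow_one] at this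
  obtain ⟨k, hk⟩ := hdvd
  rw [Cfsg.Agent.Lib.Helper24.mul_pow_of_commute x y h2 h3 p, hk, pow_mul, h4, one_pow, mul_one]

end Cfsg.Agent.Lib.Helper19.Chf
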