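import Cfsg.Agent.Lib.Helper19.Chf.Defs
import Cfsg.Agent.Lib.Helper19.Chf.CB5a

set_option autoImplicit false
set_option linter.unusedVariables false
set_option linter.unusedSectionVars false

namespace Cfsg.Agent.Lib.Helper19.Chf

open Cfsg Cfsg.Agent.Lib.Helper19.Sch

theorem CB5 {G : Type*} [Group G] [Finite G] {p : ℕ} [Fact p.Prime] (hp : p ≠ 2) {H T : Subgroup G} (t : TCfg p H T) (hTn : T.Normal) :
    ∃ T1 : Subgroup G, T1.Normal ∧ ∀ x, x ∈ T1 ↔ (x ∈ T ∧ x ^ p = 1) := by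
  let T1 : Subgroup G :=
    { carrier := {x | x ∈ T ∧ x ^ p = 1}
      mul_mem' := by
        rintro a b ⟨ha, ha'⟩ ⟨hb, hb'⟩
        exact ⟨T.mul_mem ha hb, by rw [CB5a hp t a ha b hb, ha', hb', one_mul]⟩
      one_mem' := ⟨T.one_mem, one_pow p⟩
      inv_mem' := by
        rintro a ⟨ha, ha'⟩
        exact ⟨T.inv_mem ha, by rw [inv_pow, ha', inv_one]⟩ }
  refine ⟨T1, ⟨fun x hx g => ?_⟩, fun x => Iff.rfl⟩
  exact ⟨hTn.conj_mem x hx.1 g, by rw [conj_pow, hx.2, mul_one, mul_inv_cancel]⟩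

end Cfsg.Agent.Lib.Helper19.Chf
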