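import Cfsg.Agent.Lib.Helper19.Chf.Defs
import Cfsg.Agent.Lib.Helper19.Chf.CB5a

set_option autoImplicit false
set_option linter.unusedVariables false
set_option linter.unusedSectionVars false

namespace Cfsg.Agent.Lib.Helper19.Chf

open Cfsg Cfsg.Agent.Lib.Helper19.Sch

theorem CB6 {G : Type*} [Group G] [Finite G] {p : ℕ} [Fact p.Prime] (hp : p ≠ 2) {H T T1 : Subgroup G} (hH : IsPGroup p H) (t : TCfg p H T) (hZT : ZZ H < T)
    (hT1 : ∀ x, x ∈ T1 ↔ (x ∈ T ∧ x ^ p = 1)) (hcard : Nat.card T1 ≤ p) : IsMulCommutative T := by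
  classical
  have hpp : p.Prime := Fact.out
  -- the power hom
  let φ : T →* G :=
    { toFun := fun x => (x : G) ^ p
      map_one' := by simp
      map_mul' := fun a b => by
        simpa using CB5a hp t a a.2 b b.2 }
  have hrange : φ.range ≤ ZZ H := by
    rintro _ ⟨x, rfl⟩
    exact t.pow x x.2
  have hker : Nat.card φ.ker ≤ Nat.card T1 := by
    refine Nat.card_le_card_of_injective
      (fun x : φ.ker => (⟨((x : T) : G), (hT1 _).2 ⟨(x : T).2, x.2⟩⟩ : T1)) ?_
    intro a b hab
    have := congrArg (fun z : T1 => (z : G)) hab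
    exact Subtype.ext (Subtype.ext this)
  have hcT : Nat.card T ≤ p * Nat.card (ZZ H) := by
    have h1 := Subgroup.card_mul_index φ.ker
    rw [Subgroup.index_ker] at h1
    rw [← h1]
    exact Nat.mul_le_mul (hker.trans hcard) (Subgroup.card_le_of_le hrange)
  -- an element outside the centre
  obtain ⟨t₀, ht₀T, ht₀Z⟩ := SetLike.exists_of_lt hZT
  set U : Subgroup G := ZZ H ⊔ Subgroup.zpowers t₀ with hU
  have hUT : U ≤ T := sup_le hZT.le (by rw [Subgroup.zpowers_le]; exact ht₀T)
  have hZU : ZZ H < U := by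
    refine lt_of_le_of_ne le_sup_left ?_
    intro h
    apply ht₀Z
    rw [h]
    exact (le_sup_right : Subgroup.zpowers t₀ ≤ U) (Subgroup.mem_zpowers t₀)
  have hUp : IsPGroup p U := hH.to_le (hUT.trans t.le)
  have hZp : IsPGroup p (ZZ H) := hH.to_le inf_le_left
  obtain ⟨b, hb⟩ := hUp.exists_card_eq
  obtain ⟨a, ha⟩ := hZp.exists_card_eq
  have hlt : Nat.card (ZZ H) < Nat.card U := by
    refine lt_of_le_of_ne (Subgroup.card_le_of_le hZU.le) ?_
    intro h
    exact hZU.ne (Subgroup.eq_of_le_of_card_ge hZU.le h.ge)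
  have hab : a < b := by
    rw [ha, hb] at hlt
    exact (Nat.pow_lt_pow_iff_right hpp.one_lt).1 hlt
  have hcU : p * Nat.card (ZZ H) ≤ Nat.card U := by
    rw [ha, hb, ← pow_succ']
    exact Nat.pow_le_pow_right hpp.pos hab
  have hUeq : U = T := Subgroup.eq_of_le_of_card_ge hUT (hcT.trans hcU)
  -- the centre commutes with `H`
  have hZc : ∀ z ∈ ZZ H, ∀ h ∈ H, h * z = z * h := by
    intro z hz h hh
    exact (Subgroup.mem_centralizer_iff.1 hz.2) h hh
  have h1 : ∀ x ∈ T, t₀ * x = x * t₀ := by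
    intro x hx
    have hle : U ≤ Subgroup.centralizer ({t₀} : Set G) := by
      refine sup_le ?_ ?_
      · intro z hz
        rw [Subgroup.mem_centralizer_singleton_iff]
        exact (hZc z hz t₀ (t.le ht₀T)).symm
      · rw [Subgroup.zpowers_le, Subgroup.mem_centralizer_singleton_iff]
    have := hle (hUeq ▸ hx)
    rw [Subgroup.mem_centralizer_singleton_iff] at this
    exact this.symm
  have h2 : ∀ x ∈ T, ∀ y ∈ T, x * y = y * x := by
    intro x hx y hy
    have hle : U ≤ Subgroup.centralizer ({x} : Set G) := by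
      refine sup_le ?_ ?_
      · intro z hz
        rw [Subgroup.mem_centralizer_singleton_iff]
        exact (hZc z hz x (t.le hx)).symm
      · rw [Subgroup.zpowers_le, Subgroup.mem_centralizer_singleton_iff]
        exact h1 x hx
    have := hle (hUeq ▸ hy)
    rw [Subgroup.mem_centralizer_singleton_iff] at this
    exact this.symm
  exact ⟨⟨fun a b => Subtype.ext (h2 a a.2 b b.2)⟩⟩

end Cfsg.Agent.Lib.Helper19.Chf
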