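import Cfsg.Agent.Lib.Helper19.Chf.Defs

set_option autoImplicit false
set_option linter.unusedVariables false
set_option linter.unusedSectionVars false

namespace Cfsg.Agent.Lib.Helper19.Chf

open Cfsg Cfsg.Agent.Lib.Helper19.Sch

/-! PIECE CB7a (farm Chf, helper19, row S1895). -/

theorem CB7a {G : Type*} [Group G] [Finite G] {p : ℕ} [Fact p.Prime] {H T : Subgroup G} (t : TCfg p H T) (hcyc : IsCyclic (ZZ H)) (b : G) (hb : b ∈ T) :
    (H ⊓ Subgroup.centralizer {b}).relIndex H ≤ p := by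
  classical
  have hbH : b ∈ H := t.le hb
  have hZc : ∀ z ∈ ZZ H, ∀ h ∈ H, z * h = h * z := by
    intro z hz h hh
    exact ((Subgroup.mem_centralizer_iff.mp hz.2) h hh).symm
  obtain ⟨f, hf⟩ : ∃ f : ↥H →* ↥(ZZ H), ∀ h : ↥H, ((f h : ↥(ZZ H)) : G) = b * h * b⁻¹ * (h : G)⁻¹ := by
    refine ⟨MonoidHom.mk' (fun h => ⟨b * h * b⁻¹ * (h : G)⁻¹, t.comm b hb h h.2⟩) ?_, fun h => rfl⟩
    intro h1 h2
    apply Subtype.ext
    show b * ((h1 : G) * (h2 : G)) * b⁻¹ * ((h1 : G) * (h2 : G))⁻¹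
      = (b * h1 * b⁻¹ * (h1 : G)⁻¹) * (b * h2 * b⁻¹ * (h2 : G)⁻¹)
    have hc := hZc _ (t.comm b hb h2 h2.2) (h1 : G)⁻¹ (H.inv_mem h1.2)
    calc b * ((h1 : G) * (h2 : G)) * b⁻¹ * ((h1 : G) * (h2 : G))⁻¹
        = b * h1 * b⁻¹ * ((b * h2 * b⁻¹ * (h2 : G)⁻¹) * (h1 : G)⁻¹) := by group
      _ = b * h1 * b⁻¹ * ((h1 : G)⁻¹ * (b * h2 * b⁻¹ * (h2 : G)⁻¹)) := by rw [hc]
      _ = _ := by group
  have hker : (H ⊓ Subgroup.centralizer {b}).subgroupOf H = f.ker := by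
    ext h
    rw [Subgroup.mem_subgroupOf, Subgroup.mem_inf, MonoidHom.mem_ker, Subgroup.mem_centralizer_singleton_iff]
    constructor
    · rintro ⟨_, hc⟩
      apply Subtype.ext
      rw [hf]
      show b * h * b⁻¹ * (h : G)⁻¹ = 1
      have hc' : b * (h : G) = (h : G) * b := by
        first
          | exact hc
          | exact hc.symm
      rw [hc']; group
    · intro h1
      refine ⟨h.2, ?_⟩
      have h2 : b * h * b⁻¹ * (h : G)⁻¹ = 1 := by
        rw [← hf, h1]; rfl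
      have h3 : b * (h : G) = (h : G) * b := by
        calc b * (h : G) = (b * h * b⁻¹ * (h : G)⁻¹) * ((h : G) * b) := by group
          _ = (h : G) * b := by rw [h2, one_mul]
      first
        | exact h3
        | exact h3.symm
  have hpow : ∀ (h : ↥H) (n : ℕ), b ^ n * h * (b ^ n)⁻¹ * (h : G)⁻¹ = (b * h * b⁻¹ * (h : G)⁻¹) ^ n := by
    intro h n
    induction n with
    | zero => simp
    | succ n ih =>
      have hz : (b * h * b⁻¹ * (h : G)⁻¹) ^ n ∈ ZZ H := (ZZ H).pow_mem (t.comm b hb h h.2) n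
      have hc := hZc _ hz b hbH
      calc b ^ (n + 1) * h * (b ^ (n + 1))⁻¹ * (h : G)⁻¹
          = b * (b ^ n * h * (b ^ n)⁻¹ * (h : G)⁻¹) * (h * b⁻¹ * (h : G)⁻¹) := by
            rw [pow_succ']; group
        _ = b * (b * h * b⁻¹ * (h : G)⁻¹) ^ n * (h * b⁻¹ * (h : G)⁻¹) := by rw [ih]
        _ = (b * h * b⁻¹ * (h : G)⁻¹) ^ n * b * (h * b⁻¹ * (h : G)⁻¹) := by rw [hc]
        _ = (b * h * b⁻¹ * (h : G)⁻¹) ^ n * (b * h * b⁻¹ * (h : G)⁻¹) := by group
        _ = _ := (pow_succ _ _).symm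
  have hfp : ∀ h : ↥H, (f h) ^ p = 1 := by
    intro h
    apply Subtype.ext
    rw [Subgroup.coe_pow, hf, ← hpow h p]
    have hc := hZc _ (t.pow b hb) h h.2
    rw [hc]
    simp
  have _ : Fintype ↥(ZZ H) := Fintype.ofFinite _
  have hle := IsCyclic.card_pow_eq_one_le (α := ↥(ZZ H)) (n := p) (Fact.out : p.Prime).pos
  have hsub : (f.range : Set ↥(ZZ H)) ⊆ ↑(Finset.univ.filter fun a : ↥(ZZ H) => a ^ p = 1) := by
    rintro _ ⟨h, rfl⟩
    simp [hfp h]
  have h1 : Nat.card f.range ≤ (Finset.univ.filter fun a : ↥(ZZ H) => a ^ p = 1).card := by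
    have := Set.ncard_le_ncard hsub (Finset.finite_toSet _)
    rw [Set.ncard_coe_finset] at this
    exact this
  show ((H ⊓ Subgroup.centralizer {b}).subgroupOf H).index ≤ p
  rw [hker, Subgroup.index_ker]
  exact h1.trans hle

end Cfsg.Agent.Lib.Helper19.Chf
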