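import Cfsg.Agent.Lib.Helper19.Chf.Defs
import Cfsg.Agent.Lib.Helper19.Chf.CB7a

set_option autoImplicit false
set_option linter.unusedVariables false
set_option linter.unusedSectionVars false

namespace Cfsg.Agent.Lib.Helper19.Chf

open Cfsg Cfsg.Agent.Lib.Helper19.Sch

/-! PIECE CB7b (farm Chf, helper19, row S1895), proved by helper30. -/

theorem CB7b {G : Type*} [Group G] [Finite G] {p : ℕ} [Fact p.Prime] (hp : p ≠ 2) (hr : PRankLE p 2 G) {H T T1 : Subgroup G} (hH : IsPGroup p H) (t : TCfg p H T) (hZT : ZZ H < T)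
    (hcyc : IsCyclic (ZZ H)) (hT1 : ∀ x, x ∈ T1 ↔ (x ∈ T ∧ x ^ p = 1)) : Nat.card T1 ≤ p ^ 3 := by
  classical
  have hpp : p.Prime := Fact.out
  have hT1T : T1 ≤ T := fun x hx => ((hT1 x).mp hx).1
  have hT1H : T1 ≤ H := hT1T.trans t.le
  have hcomm2 : ∀ A : Subgroup G, A ≤ T1 → (∀ a ∈ A, ∀ b ∈ A, a * b = b * a) → Nat.card A ≤ p ^ 2 := by
    intro A hA hc
    exact hr A ⟨⟨fun a b => Subtype.ext (hc a a.2 b b.2)⟩⟩ (fun a ha => ((hT1 a).mp (hA ha)).2)
  have hZZ : ∀ D : Subgroup G, D ≤ T1 → Nat.card (ZZ D) ≤ p ^ 2 := by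
    intro D hD
    apply hcomm2 _ (inf_le_left.trans hD)
    intro a ha b hb
    exact (Subgroup.mem_centralizer_iff.mp (Subgroup.mem_inf.mp hb).2) a (Subgroup.mem_inf.mp ha).1
  have hpg : ∀ A : Subgroup G, A ≤ T1 → ∃ n, Nat.card A = p ^ n := fun A hA =>
    IsPGroup.iff_card.mp (hH.to_le (hA.trans hT1H))
  by_cases hcase : T1 ≤ ZZ H
  · have h1 : Nat.card T1 ≤ p ^ 2 := by
      apply hcomm2 T1 le_rfl
      intro a ha b hb
      exact (Subgroup.mem_centralizer_iff.mp (Subgroup.mem_inf.mp (hcase hb)).2) a (hT1H ha)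
    exact h1.trans (Nat.pow_le_pow_right hpp.pos (by norm_num))
  obtain ⟨u, huT1, huZ⟩ := SetLike.not_le_iff_exists.mp hcase
  -- Z0 nontrivial
  have hZ0 : T1 ⊓ ZZ H ≠ ⊥ := by
    have hHne : Nontrivial H := by
      refine ⟨⟨⟨u, hT1H huT1⟩, 1, ?_⟩⟩
      intro e
      apply huZ
      have : u = 1 := congrArg Subtype.val e
      rw [this]; exact one_mem _
    have hcn : Nontrivial (Subgroup.center H) := hH.center_nontrivial
    obtain ⟨⟨z, hz⟩, hz1⟩ := exists_ne (1 : Subgroup.center H)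
    have hzZ : (z : G) ∈ ZZ H := by
      refine Subgroup.mem_inf.mpr ⟨z.2, ?_⟩
      rw [Subgroup.mem_centralizer_iff]
      intro h hh
      have := (Subgroup.mem_center_iff.mp hz) ⟨h, hh⟩
      exact congrArg Subtype.val this
    have hz1' : (z : G) ≠ 1 := by
      intro e
      apply hz1
      apply Subtype.ext
      apply Subtype.ext
      exact e
    have hZp : IsPGroup p (ZZ H) := hH.to_le inf_le_left
    have hdvd : p ∣ Nat.card (ZZ H) := by
      rcases hZp.card_eq_or_dvd with h1 | h1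
      · exfalso
        have := (Subgroup.card_eq_one.mp h1)
        rw [this] at hzZ
        exact hz1' (Subgroup.mem_bot.mp hzZ)
      · exact h1
    obtain ⟨w, hw⟩ := exists_prime_orderOf_dvd_card' p hdvd
    intro e
    have hwm : (w : G) ∈ T1 ⊓ ZZ H := by
      refine Subgroup.mem_inf.mpr ⟨(hT1 _).mpr ⟨hZT.le w.2, ?_⟩, w.2⟩
      have := pow_orderOf_eq_one w
      rw [hw] at this
      exact congrArg Subtype.val this
    rw [e, Subgroup.mem_bot] at hwm
    have : w = 1 := Subtype.ext hwm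
    rw [this, orderOf_one] at hw
    exact hpp.one_lt.ne hw
  obtain ⟨C, hCdef⟩ : ∃ C : Subgroup G, C = T1 ⊓ Subgroup.centralizer {u} := ⟨_, rfl⟩
  have hCT1 : C ≤ T1 := by rw [hCdef]; exact inf_le_left
  have hCu : ∀ x ∈ C, u * x = x * u := by
    intro x hx
    rw [hCdef] at hx
    exact (Subgroup.mem_centralizer_singleton_iff.mp (Subgroup.mem_inf.mp hx).2).symm
  have huC : u ∈ C := by
    rw [hCdef]
    exact Subgroup.mem_inf.mpr ⟨huT1, Subgroup.mem_centralizer_singleton_iff.mpr rfl⟩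
  have hZ0c : ∀ z ∈ T1 ⊓ ZZ H, ∀ h ∈ H, h * z = z * h := fun z hz h hh =>
    (Subgroup.mem_centralizer_iff.mp (Subgroup.mem_inf.mp (Subgroup.mem_inf.mp hz).2).2) h hh
  have hZ0C : T1 ⊓ ZZ H ≤ ZZ C := by
    intro z hz
    refine Subgroup.mem_inf.mpr ⟨?_, ?_⟩
    · rw [hCdef]
      refine Subgroup.mem_inf.mpr ⟨(Subgroup.mem_inf.mp hz).1, Subgroup.mem_centralizer_singleton_iff.mpr ?_⟩
      exact (hZ0c z hz u (hT1H huT1)).symm
    · rw [Subgroup.mem_centralizer_iff]
      intro h hh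
      exact hZ0c z hz h (hT1H (hCT1 hh))
  have huZC : u ∈ ZZ C := by
    refine Subgroup.mem_inf.mpr ⟨huC, ?_⟩
    rw [Subgroup.mem_centralizer_iff]
    intro h hh
    exact (hCu h hh).symm
  have hlow : p ^ 2 ≤ Nat.card (ZZ C) := by
    obtain ⟨b, hb⟩ := hpg (ZZ C) (inf_le_left.trans hCT1)
    obtain ⟨a, ha⟩ := hpg (T1 ⊓ ZZ H) inf_le_left
    rw [hb]
    by_contra hlt
    have hb1 : b ≤ 1 := by
      by_contra hb2
      exact hlt (Nat.pow_le_pow_right hpp.pos (by omega))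
    have ha1 : 1 ≤ a := by
      rcases a with _ | a
      · rw [pow_zero] at ha
        exact absurd (Subgroup.card_eq_one.mp ha) hZ0
      · omega
    have hle : Nat.card (ZZ C) ≤ Nat.card ↥(T1 ⊓ ZZ H) := by
      rw [ha, hb]
      exact Nat.pow_le_pow_right hpp.pos (by omega)
    have := Subgroup.eq_of_le_of_card_ge hZ0C hle
    rw [← this] at huZC
    exact huZ (Subgroup.mem_inf.mp huZC).2
  have hCle : C ≤ ZZ C := by
    intro v hv
    obtain ⟨D, hDdef⟩ : ∃ D : Subgroup G, D = C ⊓ Subgroup.centralizer {v} := ⟨_, rfl⟩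
    have hDC : D ≤ C := by rw [hDdef]; exact inf_le_left
    have hle : ZZ C ≤ ZZ D := by
      intro x hx
      have hx1 := (Subgroup.mem_inf.mp hx).1
      have hx2 := Subgroup.mem_centralizer_iff.mp (Subgroup.mem_inf.mp hx).2
      refine Subgroup.mem_inf.mpr ⟨?_, ?_⟩
      · rw [hDdef]
        exact Subgroup.mem_inf.mpr ⟨hx1, Subgroup.mem_centralizer_singleton_iff.mpr (hx2 v hv).symm⟩
      · rw [Subgroup.mem_centralizer_iff]
        intro h hh
        exact hx2 h (hDC hh)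
    have hcard : Nat.card (ZZ D) ≤ Nat.card (ZZ C) := (hZZ D (hDC.trans hCT1)).trans hlow
    have heq := Subgroup.eq_of_le_of_card_ge hle hcard
    rw [heq]
    refine Subgroup.mem_inf.mpr ⟨?_, ?_⟩
    · rw [hDdef]
      exact Subgroup.mem_inf.mpr ⟨hv, Subgroup.mem_centralizer_singleton_iff.mpr rfl⟩
    · rw [Subgroup.mem_centralizer_iff]
      intro h hh
      rw [hDdef] at hh
      exact (Subgroup.mem_centralizer_singleton_iff.mp (Subgroup.mem_inf.mp hh).2)
  have hCcard : Nat.card C ≤ p ^ 2 :=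
    (Subgroup.card_le_of_le hCle).trans (hZZ C hCT1)
  have hidx : C.relIndex T1 ≤ p := by
    have h1 := CB7a t hcyc u (hT1T huT1)
    have h2 : (H ⊓ Subgroup.centralizer {u}).relIndex T1 ≤ (H ⊓ Subgroup.centralizer {u}).relIndex H :=
      Subgroup.relIndex_le_of_le_right hT1H (Subgroup.index_ne_zero_of_finite)
    have h3 : (H ⊓ Subgroup.centralizer {u}).relIndex T1 = C.relIndex T1 := by
      rw [← Subgroup.inf_relIndex_right, hCdef]
      congr 1
      rw [inf_comm, ← inf_assoc, inf_of_le_left hT1H]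
    rw [← h3]
    exact h2.trans h1
  have hmul : C.relIndex T1 * Nat.card C = Nat.card T1 := by
    have := Subgroup.relIndex_mul_relIndex ⊥ C T1 bot_le hCT1
    rw [Subgroup.relIndex_bot_left, Subgroup.relIndex_bot_left] at this
    rw [mul_comm]; exact this
  calc Nat.card T1 = C.relIndex T1 * Nat.card C := hmul.symm
    _ ≤ p * p ^ 2 := Nat.mul_le_mul hidx hCcard
    _ = p ^ 3 := by ring

end Cfsg.Agent.Lib.Helper19.Chf
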