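import Cfsg.Agent.Lib.Helper19.Chf.Defs
import Cfsg.Agent.Lib.Helper19.Chf.CB7a

set_option autoImplicit false
set_option linter.unusedVariables false
set_option linter.unusedSectionVars false

namespace Cfsg.Agent.Lib.Helper19.Chf

open Cfsg Cfsg.Agent.Lib.Helper19.Sch

/-! PIECE CB7c (farm Chf, helper19, row S1895). -/

theorem CB7c {G : Type*} [Group G] [Finite G] {p : ℕ} [Fact p.Prime] {H T T1 : Subgroup G} (hH : IsPGroup p H) (t : TCfg p H T) (hcyc : IsCyclic (ZZ H))
    (hT1 : T1 ≤ T) (hcard : Nat.card T1 ≤ p ^ 3) (hna : ¬ IsMulCommutative T1) :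
    (H ⊓ Subgroup.centralizer (T1 : Set G)).relIndex H ≤ p ^ 2 := by
  classical
  have hp : p.Prime := Fact.out
  obtain ⟨b1, hb1, b2, hb2, hne⟩ : ∃ b1 ∈ T1, ∃ b2 ∈ T1, b1 * b2 ≠ b2 * b1 := by
    by_contra hcon
    push Not at hcon
    apply hna
    exact ⟨⟨fun a b => Subtype.ext (hcon a.1 a.2 b.1 b.2)⟩⟩
  have hST : Subgroup.closure ({b1, b2} : Set G) ≤ T1 := by
    rw [Subgroup.closure_le]
    intro x hx
    rcases hx with rfl | rfl
    · exact hb1
    · exact hb2
  have hSp : IsPGroup p (Subgroup.closure ({b1, b2} : Set G)) := hH.to_le (hST.trans (hT1.trans t.le))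
  obtain ⟨k, hk⟩ := IsPGroup.iff_card.mp hSp
  have hb1S : b1 ∈ Subgroup.closure ({b1, b2} : Set G) := Subgroup.subset_closure (by simp)
  have hb2S : b2 ∈ Subgroup.closure ({b1, b2} : Set G) := Subgroup.subset_closure (by simp)
  have hSnc : ¬ (∀ a b : Subgroup.closure ({b1, b2} : Set G), a * b = b * a) :=
    fun h => hne (congrArg Subtype.val (h ⟨b1, hb1S⟩ ⟨b2, hb2S⟩))
  have hk3 : 3 ≤ k := by
    by_contra hlt
    apply hSnc
    have h012 : k = 0 ∨ k = 1 ∨ k = 2 := by omega
    rcases h012 with rfl | rfl | rfl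
    · rw [pow_zero] at hk
      haveI : Subsingleton (Subgroup.closure ({b1, b2} : Set G)) := (Nat.card_eq_one_iff_unique.mp hk).1
      intro a b
      exact Subsingleton.elim _ _
    · rw [pow_one] at hk
      haveI := isCyclic_of_prime_card hk
      intro a b
      exact IsCyclic.commGroup.mul_comm a b
    · exact IsPGroup.commutative_of_card_eq_prime_sq hk
  have hSeq : Subgroup.closure ({b1, b2} : Set G) = T1 := by
    apply Subgroup.eq_of_le_of_card_ge hST
    rw [hk]
    exact hcard.trans (Nat.pow_le_pow_right hp.pos hk3)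
  have hle : (H ⊓ Subgroup.centralizer {b1}) ⊓ (H ⊓ Subgroup.centralizer {b2}) ≤
      H ⊓ Subgroup.centralizer (T1 : Set G) := by
    intro g hg
    obtain ⟨⟨hgH, hg1⟩, ⟨-, hg2⟩⟩ := hg
    refine ⟨hgH, ?_⟩
    show g ∈ Subgroup.centralizer (T1 : Set G)
    rw [Subgroup.mem_centralizer_iff]
    intro h hh
    have hh' : h ∈ Subgroup.closure ({b1, b2} : Set G) := by rw [hSeq]; exact hh
    have hcl : Subgroup.closure ({b1, b2} : Set G) ≤ Subgroup.centralizer {g} := by
      rw [Subgroup.closure_le]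
      intro x hx
      show x ∈ Subgroup.centralizer {g}
      rw [Subgroup.mem_centralizer_iff]
      intro y hy
      rw [Set.mem_singleton_iff] at hy
      subst hy
      rcases hx with rfl | rfl
      · exact ((Subgroup.mem_centralizer_iff.mp hg1) x (Set.mem_singleton _)).symm
      · exact ((Subgroup.mem_centralizer_iff.mp hg2) x (Set.mem_singleton _)).symm
    exact ((Subgroup.mem_centralizer_iff.mp (hcl hh')) g (Set.mem_singleton _)).symm
  have h1 := CB7a t hcyc b1 (hT1 hb1)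
  have h2 := CB7a t hcyc b2 (hT1 hb2)
  have h3 : (H ⊓ Subgroup.centralizer (T1 : Set G)).relIndex H ≤
      ((H ⊓ Subgroup.centralizer {b1}) ⊓ (H ⊓ Subgroup.centralizer {b2})).relIndex H :=
    Nat.le_of_dvd (Nat.pos_of_ne_zero Subgroup.index_ne_zero_of_finite) (Subgroup.relIndex_dvd_of_le_left H hle)
  calc (H ⊓ Subgroup.centralizer (T1 : Set G)).relIndex H
      ≤ ((H ⊓ Subgroup.centralizer {b1}) ⊓ (H ⊓ Subgroup.centralizer {b2})).relIndex H := h3
    _ ≤ (H ⊓ Subgroup.centralizer {b1}).relIndex H * (H ⊓ Subgroup.centralizer {b2}).relIndex H :=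
        Subgroup.relIndex_inf_le
    _ ≤ p * p := Nat.mul_le_mul h1 h2
    _ = p ^ 2 := (sq p).symm

end Cfsg.Agent.Lib.Helper19.Chf
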