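import Mathlib
import Cfsg.Prelude.Def_CaseTheorems
import Cfsg.Prelude.Def_Transfer
import Cfsg.Agent.Lib.Helper19.Sch.Defs

set_option autoImplicit false

/-! helper19: vocabulary for row S1895 (chief p-factors of groups of p-rank at most 2, p odd). -/

namespace Cfsg.Agent.Lib.Helper19.Chf

open Cfsg Cfsg.Agent.Lib.Helper19.Sch

/-- `H` is a normal `p`-subgroup and `K` is the largest normal subgroup of `G` properly contained in `H`. -/
structure Cfg (p : ℕ) {G : Type*} [Group G] (H K : Subgroup G) : Prop where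
  odd : p ≠ 2
  rank : PRankLE p 2 G
  hHn : H.Normal
  hKn : K.Normal
  hH : IsPGroup p H
  lt : K < H
  min : ∀ L : Subgroup G, L.Normal → L ≤ H → L ≠ H → L ≤ K

/-- `T/Z(H)` consists of elements of order at most `p` of `Z(H/Z(H))`. -/
structure TCfg (p : ℕ) {G : Type*} [Group G] (H T : Subgroup G) : Prop where
  le : T ≤ H
  pow : ∀ x ∈ T, x ^ p ∈ ZZ H
  comm : ∀ x ∈ T, ∀ h ∈ H, x * h * x⁻¹ * h⁻¹ ∈ ZZ H

/-- no normal elementary abelian subgroup of order `p^2` inside `H` -/
def NoE2 (p : ℕ) {G : Type*} [Group G] (H : Subgroup G) : Prop :=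
  ∀ E : Subgroup G, E.Normal → E ≤ H → IsElementaryAbelian p E → Nat.card E ≠ p ^ 2

end Cfsg.Agent.Lib.Helper19.Chf
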