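import Cfsg.Agent.Lib.Helper19.Chf.Defs

set_option autoImplicit false
set_option linter.unusedVariables false
set_option linter.unusedSectionVars false

namespace Cfsg.Agent.Lib.Helper19.Chf

open Cfsg Cfsg.Agent.Lib.Helper19.Sch

/-! PIECE RB (farm Chf, helper19, row S1895).  PROOF SKETCH:
For A : Subgroup ↥N use A.map N.subtype: commutative, exponent p, same card (Subgroup.card_map_of_injective).
-/

theorem RB {G : Type*} [Group G] {p k : ℕ} (hr : PRankLE p k G) (N : Subgroup G) : PRankLE p k ↥N := by
  intro A hA hAp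
  have h1 : Nat.card (A.map N.subtype) = Nat.card A :=
    Subgroup.card_map_of_injective N.subtype_injective
  rw [← h1]
  apply hr
  · refine ⟨⟨?_⟩⟩
    rintro ⟨_, a, ha, rfl⟩ ⟨_, b, hb, rfl⟩
    apply Subtype.ext
    have := hA.is_comm.comm ⟨a, ha⟩ ⟨b, hb⟩
    have h2 : a * b = b * a := congrArg Subtype.val this
    show (a : G) * (b : G) = (b : G) * (a : G)
    exact congrArg (Subtype.val : ↥N → G) h2
  · rintro _ ⟨a, ha, rfl⟩
    have := hAp a ha
    simpa using congrArg Subtype.val this

end Cfsg.Agent.Lib.Helper19.Chf
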