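import Cfsg.Agent.Lib.Helper19.Chf.Defs

set_option autoImplicit false
set_option linter.unusedVariables false
set_option linter.unusedSectionVars false

namespace Cfsg.Agent.Lib.Helper19.Chf

open Cfsg Cfsg.Agent.Lib.Helper19.Sch

/-! PIECE RC1 (farm Chf, helper19, row S1895).  PROOF SKETCH:
P0 is (the image in G of) a Sylow p-subgroup of H; N := normalizer P0.  Frattini: N ⊔ H = ⊤ (Sylow.normalizer_sup_eq_top for S : Sylow p ↥H; here it is a hypothesis hfr).  H = K ⊔ P0 (hyp hsup).  So ⊤ = N ⊔ K (P0 ≤ N).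
L ≤ P0 normalized by N, P0 ⊓ K ≤ L.  L ⊔ K is normalized by N (L and K are) and by K (k l k⁻¹ = (k l k⁻¹ l⁻¹) l ∈ K L), hence normal in G.  K ≤ L ⊔ K ≤ H.  hchief: if L ⊔ K = K then L ≤ P0 ⊓ K; if L ⊔ K = H then
P0 = P0 ⊓ (L ⊔ K) = L ⊔ (P0 ⊓ K) = L (modular law, K normal: x ∈ P0, x = l k, k = l⁻¹ x ∈ P0 ⊓ K ≤ L).
-/

theorem RC1_mem_sup {G : Type*} [Group G] {L K : Subgroup G} (hK : K.Normal) {x : G} (hx : x ∈ L ⊔ K) :
    ∃ l ∈ L, ∃ k ∈ K, l * k = x := by
  have h : x ∈ ((L ⊔ K : Subgroup G) : Set G) := hx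
  rw [Subgroup.mul_normal L K] at h
  obtain ⟨l, hl, k, hk, rfl⟩ := Set.mem_mul.1 h
  exact ⟨l, hl, k, hk, rfl⟩

theorem RC1 {G : Type*} [Group G] [Finite G] {p : ℕ} [Fact p.Prime] (H K P0 : Subgroup G) (hHn : H.Normal) (hKn : K.Normal)
    (hchief : ∀ L : Subgroup G, L.Normal → K ≤ L → L ≤ H → L = K ∨ L = H)
    (hP0 : P0 ≤ H) (hsup : K ⊔ P0 = H) (hfr : Subgroup.normalizer (P0 : Set G) ⊔ H = ⊤)
    (L : Subgroup G) (hL1 : P0 ⊓ K ≤ L) (hL2 : L ≤ P0)
    (hLn : ∀ g ∈ Subgroup.normalizer (P0 : Set G), ∀ x ∈ L, g * x * g⁻¹ ∈ L) : L = P0 ⊓ K ∨ L = P0 := by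
  have hKH : K ≤ H := by rw [← hsup]; exact le_sup_left
  -- the set of elements normalizing `L ⊔ K`
  have hN : ∀ g : G, ∀ x ∈ L ⊔ K, g * x * g⁻¹ ∈ L ⊔ K := by
    have hP0N : P0 ≤ Subgroup.normalizer (P0 : Set G) := Subgroup.le_normalizer
    have htop : Subgroup.normalizer (P0 : Set G) ⊔ K = ⊤ := by
      rw [eq_top_iff, ← hfr, ← hsup]
      refine sup_le le_sup_left (sup_le le_sup_right (hP0N.trans le_sup_left))
    -- the normalizer of `L ⊔ K` contains both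
    have h1 : Subgroup.normalizer (P0 : Set G) ≤ Subgroup.normalizer ((L ⊔ K : Subgroup G) : Set G) := by
      intro g hg
      have key : ∀ g ∈ Subgroup.normalizer (P0 : Set G), ∀ x ∈ L ⊔ K, g * x * g⁻¹ ∈ L ⊔ K := by
        intro g hg x hx
        obtain ⟨l, hl, k, hk, rfl⟩ := RC1_mem_sup hKn hx
        have : g * (l * k) * g⁻¹ = (g * l * g⁻¹) * (g * k * g⁻¹) := by group
        rw [this]
        exact mul_mem (Subgroup.mem_sup_left (hLn g hg l hl)) (Subgroup.mem_sup_right (hKn.conj_mem k hk g))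
      rw [Subgroup.mem_normalizer_iff]
      intro x
      constructor
      · exact key g hg x
      · intro hx
        have := key g⁻¹ (inv_mem hg) _ hx
        simpa [mul_assoc] using this
    have h2 : K ≤ Subgroup.normalizer ((L ⊔ K : Subgroup G) : Set G) :=
      le_sup_right.trans Subgroup.le_normalizer
    have h3 : Subgroup.normalizer ((L ⊔ K : Subgroup G) : Set G) = ⊤ := by
      rw [eq_top_iff, ← htop]
      exact sup_le h1 h2
    intro g x hx
    have hg : g ∈ Subgroup.normalizer ((L ⊔ K : Subgroup G) : Set G) := by rw [h3]; trivial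
    exact (Subgroup.mem_normalizer_iff.1 hg x).1 hx
  have hnorm : (L ⊔ K).Normal := ⟨fun x hx g => hN g x hx⟩
  rcases hchief (L ⊔ K) hnorm le_sup_right (sup_le (hL2.trans hP0) hKH) with h | h
  · left
    apply le_antisymm _ hL1
    intro x hx
    exact ⟨hL2 hx, by rw [← h]; exact Subgroup.mem_sup_left hx⟩
  · right
    apply le_antisymm hL2
    intro x hx
    have hxH : x ∈ L ⊔ K := by rw [h]; exact hP0 hx
    obtain ⟨l, hl, k, hk, rfl⟩ := RC1_mem_sup hKn hxH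
    have hkP : k ∈ P0 := by
      have : k = l⁻¹ * (l * k) := by group
      rw [this]
      exact mul_mem (inv_mem (hL2 hl)) hx
    exact mul_mem hl (hL1 ⟨hkP, hk⟩)

end Cfsg.Agent.Lib.Helper19.Chf
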