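import Cfsg.Agent.Lib.Helper19.Chf.Defs
import Cfsg.Agent.Lib.Helper19.Chf.RC1
import Cfsg.Agent.Lib.Helper19.Chf.RB

set_option autoImplicit false
set_option linter.unusedVariables false
set_option linter.unusedSectionVars false

namespace Cfsg.Agent.Lib.Helper19.Chf

open Cfsg Cfsg.Agent.Lib.Helper19.Sch

/-! PIECE RC2 (farm Chf, helper19, row S1895), proved by helper30. -/

theorem RC2 {G : Type*} [Group G] [Finite G] {p : ℕ} [Fact p.Prime] (hp : p ≠ 2) (hr : PRankLE p 2 G)
    (hred : ∀ (N : Subgroup G) (H1 K1 : Subgroup ↥N), H1.Normal → K1.Normal → IsPGroup p H1 → K1 < H1 →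
      (∀ L : Subgroup ↥N, L.Normal → K1 ≤ L → L ≤ H1 → L = K1 ∨ L = H1) → K1.relIndex H1 ≤ p ^ 2)
    (H K : Subgroup G) (hHn : H.Normal) (hKn : K.Normal) (hKH : K < H) (hpow : ∃ n : ℕ, K.relIndex H = p ^ n)
    (hchief : ∀ L : Subgroup G, L.Normal → K ≤ L → L ≤ H → L = K ∨ L = H) : K.relIndex H ≤ p ^ 2 := by
  classical
  have hpp : p.Prime := Fact.out
  let S : Sylow p ↥H := default
  obtain ⟨P0, hP0def⟩ : ∃ P0 : Subgroup G, P0 = (S : Subgroup H).map H.subtype := ⟨_, rfl⟩
  have hP0H : P0 ≤ H := by rw [hP0def]; exact Subgroup.map_subtype_le _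
  have hfr : Subgroup.normalizer (P0 : Set G) ⊔ H = ⊤ := by
    rw [hP0def]; exact Sylow.normalizer_sup_eq_top S
  have hP0p : IsPGroup p P0 := by
    rw [hP0def]; exact S.isPGroup'.map H.subtype
  have hidx : ¬ p ∣ P0.relIndex H := by
    have e : P0.subgroupOf H = (S : Subgroup H) := by
      rw [hP0def]
      exact Subgroup.comap_map_eq_self_of_injective (Subgroup.subtype_injective H) _
    rw [Subgroup.relIndex, e]
    exact S.not_dvd_index
  have hsup : K ⊔ P0 = H := by
    apply le_antisymm (sup_le hKH.le hP0H)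
    obtain ⟨n, hn⟩ := hpow
    have d1 : (K ⊔ P0).relIndex H ∣ p ^ n := hn ▸ Subgroup.relIndex_dvd_of_le_left H (le_sup_left : K ≤ K ⊔ P0)
    have d2 : (K ⊔ P0).relIndex H ∣ P0.relIndex H := Subgroup.relIndex_dvd_of_le_left H (le_sup_right : P0 ≤ K ⊔ P0)
    obtain ⟨j, hj, hj2⟩ := (Nat.dvd_prime_pow hpp).mp d1
    rcases j with _ | j
    · rw [pow_zero] at hj2
      exact Subgroup.relIndex_eq_one.mp hj2
    · exfalso
      apply hidx
      refine dvd_trans ?_ d2
      rw [hj2]
      exact dvd_pow_self p (Nat.succ_ne_zero j)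
  have hP0N : P0 ≤ Subgroup.normalizer (P0 : Set G) := Subgroup.le_normalizer
  have hconj : ∀ g ∈ Subgroup.normalizer (P0 : Set G), ∀ x ∈ P0, g * x * g⁻¹ ∈ P0 := fun g hg x hx =>
    (Subgroup.mem_normalizer_iff.mp hg x).mp hx
  have hH1n : (P0.subgroupOf (Subgroup.normalizer (P0 : Set G))).Normal := by
    constructor
    intro x hx g
    rw [Subgroup.mem_subgroupOf] at hx ⊢
    simpa using hconj g g.2 x hx
  have hK1n : ((P0 ⊓ K).subgroupOf (Subgroup.normalizer (P0 : Set G))).Normal := by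
    constructor
    intro x hx g
    rw [Subgroup.mem_subgroupOf] at hx ⊢
    have h1 := hconj g g.2 x hx.1
    have h2 := hKn.conj_mem x hx.2 g
    exact Subgroup.mem_inf.mpr ⟨by simpa using h1, by simpa using h2⟩
  have hlt : (P0 ⊓ K).subgroupOf (Subgroup.normalizer (P0 : Set G)) < P0.subgroupOf (Subgroup.normalizer (P0 : Set G)) := by
    refine lt_of_le_of_ne (Subgroup.comap_mono inf_le_left) ?_
    intro e
    have hP0K : P0 ≤ K := by
      intro x hx
      have h1 : (⟨x, hP0N hx⟩ : Subgroup.normalizer (P0 : Set G)) ∈ P0.subgroupOf (Subgroup.normalizer (P0 : Set G)) := by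
        rw [Subgroup.mem_subgroupOf]; exact hx
      rw [← e, Subgroup.mem_subgroupOf] at h1
      exact h1.2
    have : K = H := by rw [← hsup]; exact (sup_eq_left.mpr hP0K).symm
    exact hKH.ne this
  have hch : ∀ L : Subgroup ↥(Subgroup.normalizer (P0 : Set G)), L.Normal →
      (P0 ⊓ K).subgroupOf (Subgroup.normalizer (P0 : Set G)) ≤ L → L ≤ P0.subgroupOf (Subgroup.normalizer (P0 : Set G)) →
      L = (P0 ⊓ K).subgroupOf (Subgroup.normalizer (P0 : Set G)) ∨ L = P0.subgroupOf (Subgroup.normalizer (P0 : Set G)) := by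
    intro L hLn hL1 hL2
    have eL : (L.map (Subgroup.normalizer (P0 : Set G)).subtype).subgroupOf (Subgroup.normalizer (P0 : Set G)) = L :=
      Subgroup.comap_map_eq_self_of_injective (Subgroup.subtype_injective _) _
    have := RC1 (p := p) H K P0 hHn hKn hchief hP0H hsup hfr (L.map (Subgroup.normalizer (P0 : Set G)).subtype)
      (by
        intro x hx
        refine ⟨⟨x, hP0N hx.1⟩, hL1 ?_, rfl⟩
        rw [Subgroup.mem_subgroupOf]; exact hx)
      (by
        rintro x ⟨y, hy, rfl⟩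
        exact hL2 hy)
      (by
        rintro g hg x ⟨y, hy, rfl⟩
        exact ⟨⟨g, hg⟩ * y * ⟨g, hg⟩⁻¹, hLn.conj_mem y hy ⟨g, hg⟩, by simp⟩)
    rcases this with h1 | h1
    · left; rw [← eL, h1]
    · right; rw [← eL, h1]
  have hfin := hred _ _ _ hH1n hK1n hP0p.comap_subtype hlt hch
  rw [Subgroup.relIndex_subgroupOf hP0N, Subgroup.inf_relIndex_left] at hfin
  rw [← hsup, Subgroup.relIndex_sup_left]
  exact hfin

end Cfsg.Agent.Lib.Helper19.Chf
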