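import Cfsg.Agent.Lib.Helper19.Chf.Defs

set_option autoImplicit false
set_option linter.unusedVariables false
set_option linter.unusedSectionVars false

namespace Cfsg.Agent.Lib.Helper19.Chf

open Cfsg Cfsg.Agent.Lib.Helper19.Sch

/-! PIECE RED (farm Chf, helper19, row S1895), formalized by helper46. -/

theorem RED {G : Type*} [Group G] [Finite G] {p : ℕ} [Fact p.Prime] (hp : p ≠ 2) (hr : PRankLE p 2 G)
    (hcore : ∀ H K : Subgroup G, Cfg p H K → K.relIndex H ≤ p ^ 2)
    (H K : Subgroup G) (hHn : H.Normal) (hKn : K.Normal) (hH : IsPGroup p H) (hKH : K < H)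
    (hchief : ∀ L : Subgroup G, L.Normal → K ≤ L → L ≤ H → L = K ∨ L = H) : K.relIndex H ≤ p ^ 2 := by
  have key : ∀ n : ℕ, ∀ H K : Subgroup G, Nat.card H = n → H.Normal → K.Normal → IsPGroup p H → K < H →
      (∀ L : Subgroup G, L.Normal → K ≤ L → L ≤ H → L = K ∨ L = H) → K.relIndex H ≤ p ^ 2 := by
    intro n
    induction n using Nat.strong_induction_on with
    | _ n ih =>
      intro H K hn hHn hKn hH hKH hchief
      by_cases hall : ∀ L : Subgroup G, L.Normal → L ≤ H → L ≠ H → L ≤ K
      · exact hcore H K ⟨hp, hr, hHn, hKn, hH, hKH, hall⟩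
      · push Not at hall
        obtain ⟨L, hLn, hLH, hLne, hLK⟩ := hall
        have hsup : K ⊔ L = H := by
          have hn' : (K ⊔ L).Normal := inferInstance
          rcases hchief (K ⊔ L) hn' le_sup_left (sup_le hKH.le hLH) with h | h
          · exact absurd (h ▸ (le_sup_right : L ≤ K ⊔ L)) hLK
          · exact h
        have hlt : L < H := lt_of_le_of_ne hLH hLne
        have hcard : Nat.card L < Nat.card H := by
          rcases lt_or_ge (Nat.card L) (Nat.card H) with h | h
          · exact h
          · exact absurd (Subgroup.eq_of_le_of_card_ge hLH h) hLne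
        have hinfn : (L ⊓ K).Normal := inferInstance
        have hinflt : L ⊓ K < L := by
          refine lt_of_le_of_ne inf_le_left ?_
          intro h
          exact hLK (inf_eq_left.mp h)
        have hch : ∀ M : Subgroup G, M.Normal → L ⊓ K ≤ M → M ≤ L → M = L ⊓ K ∨ M = L := by
          intro M hMn hM1 hM2
          have hn' : (K ⊔ M).Normal := inferInstance
          rcases hchief (K ⊔ M) hn' le_sup_left (sup_le hKH.le (hM2.trans hLH)) with h | h
          · left
            have hMK : M ≤ K := h ▸ (le_sup_right : M ≤ K ⊔ M)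
            exact le_antisymm (le_inf hM2 hMK) hM1
          · right
            apply le_antisymm hM2
            intro x hx
            have hxH : x ∈ K ⊔ M := h ▸ hLH hx
            rw [← SetLike.mem_coe, Subgroup.normal_mul] at hxH
            obtain ⟨k, hk, m, hm, rfl⟩ := Set.mem_mul.mp hxH
            have hkL : k ∈ L := by
              have := L.mul_mem hx (L.inv_mem (hM2 hm))
              simpa using this
            exact M.mul_mem (hM1 ⟨hkL, hk⟩) hm
        have h1 := ih (Nat.card L) (hn ▸ hcard) L (L ⊓ K) rfl hLn hinfn (hH.to_le hLH) hinflt hch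
        rw [Subgroup.inf_relIndex_left] at h1
        rw [← hsup, Subgroup.relIndex_sup_left]
        exact h1
  exact key _ H K rfl hHn hKn hH hKH hchief

end Cfsg.Agent.Lib.Helper19.Chf
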