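import Cfsg.Agent.Lib.Helper19.Chf.CA2
import Cfsg.Agent.Lib.Helper19.Chf.CB1
import Cfsg.Agent.Lib.Helper19.Chf.CB2
import Cfsg.Agent.Lib.Helper19.Chf.CB3
import Cfsg.Agent.Lib.Helper19.Chf.CB4
import Cfsg.Agent.Lib.Helper19.Chf.CB5
import Cfsg.Agent.Lib.Helper19.Chf.CB6
import Cfsg.Agent.Lib.Helper19.Chf.CB7b
import Cfsg.Agent.Lib.Helper19.Chf.CB7c
import Cfsg.Agent.Lib.Helper19.Chf.RED
import Cfsg.Agent.Lib.Helper19.Chf.RC2

set_option autoImplicit false
set_option linter.unusedVariables false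
set_option linter.unusedSectionVars false

namespace Cfsg.Agent.Lib.Helper19.Chf

open Cfsg Cfsg.Agent.Lib.Helper19.Sch

theorem ZZ_normal {G : Type*} [Group G] (H : Subgroup G) (hHn : H.Normal) : (ZZ H).Normal := by
  haveI := hHn
  unfold ZZ
  infer_instance

theorem ZZ_comm {G : Type*} [Group G] (H : Subgroup G) : IsMulCommutative (ZZ H) := by
  refine ⟨⟨fun a b => Subtype.ext ?_⟩⟩
  exact (Subgroup.mem_centralizer_iff.mp b.2.2 a.1 a.2.1)

/-- the core: the minimal configuration -/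
theorem core {G : Type*} [Group G] [Finite G] {p : ℕ} [hpf : Fact p.Prime] (H K : Subgroup G)
    (c : Cfg p H K) : K.relIndex H ≤ p ^ 2 := by
  have hpp : p ≤ p ^ 2 := by nlinarith [hpf.out.one_lt]
  by_cases hE : NoE2 p H
  swap
  · unfold NoE2 at hE
    push_neg at hE
    obtain ⟨E, hEn, hEH, hEe, hEc⟩ := hE
    exact CA2 c E hEn hEH hEe hEc
  by_cases hab : ZZ H = H
  · have h1 : IsMulCommutative H := hab ▸ ZZ_comm H
    exact (CB3 c (CB1 c hE H c.hHn le_rfl h1)).trans hpp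
  have hZcyc : IsCyclic (ZZ H) := CB1 c hE (ZZ H) (ZZ_normal H c.hHn) inf_le_left (ZZ_comm H)
  obtain ⟨T, hTn, hZT, t⟩ := CB4 H c.hHn c.hH hab
  obtain ⟨T1, hT1n, hT1⟩ := CB5 c.odd t hTn
  have hT1T : T1 ≤ T := fun x hx => ((hT1 x).mp hx).1
  by_cases hc1 : IsMulCommutative T1
  · have h1 : IsCyclic T1 := CB1 c hE T1 hT1n (hT1T.trans t.le) hc1
    have h2 : Nat.card T1 ≤ p := by
      obtain ⟨g, hg⟩ := h1.exists_generator
      have h3 : g ^ p = 1 := Subtype.ext (by simpa using ((hT1 g.1).mp g.2).2)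
      rw [← orderOf_eq_card_of_forall_mem_zpowers hg]
      exact orderOf_le_of_pow_eq_one hpf.out.pos h3
    have h4 : IsMulCommutative T := CB6 c.odd c.hH t hZT hT1 h2
    have h5 : IsCyclic T := CB1 c hE T hTn t.le h4
    rcases CB2 c T hTn t.le h5 with h6 | h6
    · exfalso
      exact absurd (le_inf t.le h6) (not_le_of_gt hZT)
    · exact h6.trans hpp
  · have h1 := CB7b c.odd c.rank c.hH t hZT hZcyc hT1
    have h2 := CB7c c.hH t hZcyc hT1T h1 hc1
    have hLn : (H ⊓ Subgroup.centralizer (T1 : Set G)).Normal := by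
      haveI := c.hHn
      haveI := hT1n
      infer_instance
    refine (C1 c _ hLn inf_le_left ?_).trans h2
    intro he
    apply hc1
    refine ⟨⟨fun a b => Subtype.ext ?_⟩⟩
    have hb : (b : G) ∈ H ⊓ Subgroup.centralizer (T1 : Set G) := by
      rw [he]; exact t.le (hT1T b.2)
    exact (Subgroup.mem_centralizer_iff.mp hb.2 a.1 a.2)

/-- the statement for all chief `p`-factors -/
theorem chief_le {G : Type*} [Group G] [Finite G] {p : ℕ} [hpf : Fact p.Prime] (hp : p ≠ 2)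
    (hr : PRankLE p 2 G) (H K : Subgroup G) (hHn : H.Normal) (hKn : K.Normal) (hKH : K < H)
    (hpow : ∃ n : ℕ, K.relIndex H = p ^ n)
    (hchief : ∀ L : Subgroup G, L.Normal → K ≤ L → L ≤ H → L = K ∨ L = H) : K.relIndex H ≤ p ^ 2 :=
  RC2 hp hr (fun N H1 K1 h1 h2 h3 h4 h5 =>
    RED hp (RB hr N) (fun H K c => core H K c) H1 K1 h1 h2 h3 h4 h5) H K hHn hKn hKH hpow hchief

end Cfsg.Agent.Lib.Helper19.Chf
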